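import Mathlib
import Cfsg.Agent.Small.Br1

/-!
# Fewer than `p²` Sylow subgroups, I: arithmetic of the degrees
-/

set_option autoImplicit false

namespace CF.NpSq

/-- The exceptional shape of `r < p` in Brauer's form. -/
structure Fm (p r u k : ℕ) : Prop where
  u1 : 1 ≤ u
  uk : u + 1 ≤ k
  hp : p = (u + 1) * k + 1
  hr : r = u * (k + 1) + 1

theorem Fm.unique {p r u k u' k' : ℕ} (h : Fm p r u k) (h' : Fm p r u' k') : u = u' ∧ k = k' := by
  obtain ⟨-, -, h1, h2⟩ := h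
  obtain ⟨-, -, h3, h4⟩ := h'
  have e1 : (u + 1) * k = (u' + 1) * k' := by omega
  have e2 : k + u' = k' + u := by nlinarith
  rcases lt_trichotomy u u' with h | h | h
  · have : k < k' := by omega
    nlinarith
  · omega
  · have : k' < k := by omega
    nlinarith

theorem Fm.n_eq {p r u k : ℕ} (h : Fm p r u k) :
    r * p + 1 = (u * k + 1) * ((u + 1) * (k + 1) + 1) := by
  rw [h.hr, h.hp]; ring

theorem Fm.A_eq {p r u k : ℕ} (h : Fm p r u k) : u * p + 1 = (u + 1) * (u * k + 1) := by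
  rw [h.hp]; ring

theorem Fm.B_eq {p r u k : ℕ} (h : Fm p r u k) :
    k * ((u + 1) * (k + 1) + 1) + 1 = (k + 1) * p := by
  rw [h.hp]; ring

theorem Fm.sub {p r u k : ℕ} (h : Fm p r u k) : p - 1 = (u + 1) * k := by
  rw [h.hp]; rfl

theorem dv_aux {p r d : ℕ} (hp : 2 ≤ p) (hr : r < p) (hd : d ∣ (p - 1) * (r * p + 1))
    (hm : (d : ℤ) ≡ 1 [ZMOD p]) : d = 1 ∨ d = r * p + 1 ∨ ∃ u k, Fm p r u k ∧ d = u * p + 1 := by
  obtain ⟨d', hd'⟩ := hd
  have h0 : 0 < (p - 1) * (r * p + 1) := Nat.mul_pos (by omega) (by omega)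
  have hd0 : 0 < d := Nat.pos_of_mul_pos_right (hd' ▸ h0)
  have hd1 : 0 < d' := Nat.pos_of_mul_pos_left (hd' ▸ h0)
  obtain ⟨α, rfl⟩ := CF.Small.exists_eq_of_modEq_one hd0 hm
  obtain ⟨q, rfl⟩ : ∃ q, p = q + 1 := ⟨p - 1, by omega⟩
  rw [Nat.add_sub_cancel] at hd'
  obtain ⟨β, hβ⟩ : q + 1 ∣ d' + 1 := by
    have h1 : q + 1 ∣ (α * (q + 1) + 1) * d' + 1 := ⟨q * r + 1, by rw [← hd']; ring⟩
    have h2 : (α * (q + 1) + 1) * d' + 1 = (q + 1) * (α * d') + (d' + 1) := by ring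
    rw [h2] at h1
    exact (Nat.dvd_add_right (dvd_mul_right _ _)).1 h1
  have hβ0 : 1 ≤ β := by
    rcases Nat.eq_zero_or_pos β with rfl | h <;> omega
  have key : (α : ℤ) * β * (q + 1) + β - α = r * (q + 1) + 1 - r := by
    have h1 : (d' : ℤ) = (q + 1) * β - 1 := by zify at hβ; linarith
    zify at hd'
    rw [h1] at hd'
    refine mul_left_cancel₀ (a := (q + 1 : ℤ)) (by omega) ?_
    linear_combination -hd'
  rcases Nat.eq_zero_or_pos α with rfl | hα
  · left; simp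
  right
  have h1 : α ≤ α * β := Nat.le_mul_of_pos_right _ hβ0
  have h2 : β ≤ α * β := Nat.le_mul_of_pos_left _ hα
  rcases lt_trichotomy (α * β + 1) r with h | h | h
  · exfalso
    have : ((α * β : ℕ) + 2 : ℤ) * (q + 1) ≤ r * (q + 1) :=
      mul_le_mul_of_nonneg_right (by omega) (by omega)
    push_cast at this
    zify at h h1 h2
    nlinarith
  · right
    obtain ⟨k, rfl⟩ : ∃ k, β = k + 1 := ⟨β - 1, by omega⟩
    subst h
    have e : q = (α + 1) * k := by zify; push_cast at key; linarith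
    refine ⟨α, k, ⟨hα, ?_, by omega, rfl⟩, rfl⟩
    nlinarith
  · left
    rcases Nat.lt_or_ge r (α * β) with h3 | h3
    · exfalso
      obtain ⟨s, hs⟩ : ∃ s, α * β = r + s + 1 := ⟨α * β - r - 1, by omega⟩
      zify at hs h1
      rw [hs] at key
      have : (0 : ℤ) ≤ s * q := by positivity
      nlinarith
    · have h4 : α * β = r := by omega
      have h5 : (α : ℤ) = r - 1 + β := by zify at h4; rw [h4] at key; linarith
      have : β = 1 := by
        by_contra h6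
        have : α * 2 ≤ α * β := Nat.mul_le_mul_left _ (by omega)
        omega
      subst this
      rw [← h4, mul_one]

variable {p r u k d : ℕ}

theorem exists_fm (hp : 2 ≤ p) (hr : r < p) (h : CF.Small.Fform p r) : ∃ u k, Fm p r u k := by
  obtain ⟨v, h0, h1, h2⟩ := h
  rcases dv_aux hp hr h2 (by
    push_cast; exact (Int.modEq_iff_dvd.2 ⟨-v, by ring⟩)) with h | h | ⟨u, k, h, -⟩
  · have := Nat.mul_pos h0 (by omega : 0 < p); omega
  · have := Nat.eq_of_mul_eq_mul_right (by omega : 0 < p) (by omega : v * p = r * p); omega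
  · exact ⟨u, k, h⟩

theorem Fm.two_le (h : Fm p r u k) : 2 ≤ p := by
  have := h.uk; have := h.hp; nlinarith

theorem Fm.lt (h : Fm p r u k) : r < p := by
  have := h.uk; have := h.hp; have := h.hr; nlinarith

theorem Fm.dv_pos (h : Fm p r u k) (hd : d ∣ (p - 1) * (r * p + 1)) (hm : (d : ℤ) ≡ 1 [ZMOD p]) :
    d = 1 ∨ d = r * p + 1 ∨ d = u * p + 1 := by
  rcases dv_aux h.two_le h.lt hd hm with e | e | ⟨u', k', h', e⟩
  · exact Or.inl e
  · exact Or.inr (Or.inl e)
  · exact Or.inr (Or.inr ((h.unique h').1 ▸ e))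

theorem Fm.dv_neg (h : Fm p r u k) (hd : d ∣ (p - 1) * (r * p + 1)) (hm : (d : ℤ) ≡ -1 [ZMOD p]) :
    d = p - 1 ∨ d = (p - 1) * (r * p + 1) ∨ d = k * ((u + 1) * (k + 1) + 1) := by
  obtain ⟨d', hd'⟩ := hd
  have hp := h.two_le
  have h1 : (d' : ℤ) ≡ 1 [ZMOD p] := by
    have h2 : (((p - 1) * (r * p + 1) : ℕ) : ℤ) ≡ -1 [ZMOD p] := by
      push_cast [Nat.cast_sub (by omega : 1 ≤ p)]
      exact Int.modEq_iff_dvd.2 ⟨-(r * p + 1 - r), by ring⟩
    rw [hd'] at h2
    push_cast at h2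
    have h3 := (hm.mul_right (d' : ℤ)).symm.trans h2
    simpa using h3.neg
  rcases h.dv_pos (Dvd.intro_left _ hd'.symm) h1 with e | e | e
  · right; left; rw [hd', e, mul_one]
  · left
    rw [e] at hd'
    exact (Nat.eq_of_mul_eq_mul_right (by omega) hd').symm
  · right; right
    rw [e, h.sub, h.n_eq, h.A_eq] at hd'
    refine Nat.eq_of_mul_eq_mul_right (m := (u + 1) * (u * k + 1)) (by positivity) ?_
    rw [← hd']; ring

end CF.NpSq
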