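import Mathlib

/-!
# Fewer than `p²` Sylow subgroups, II: the degree equation
-/

set_option autoImplicit false

namespace CF.NpSq

/-- Numerical data of the principal block: `p = (u+1) k + 1`, `n = a b`. -/
structure Dt (u k a b e t x a1 a2 b1 b2 : ℕ) (δ : ℤ) : Prop where
  u1 : 1 ≤ u
  uk : u + 1 ≤ k
  ha : a = u * k + 1
  hb : b = (u + 1) * (k + 1) + 1
  et : t * e = (u + 1) * k
  cnt : 1 + a1 + a2 + b1 + b2 = e
  deg : (1 + a1 * (a * b) + a2 * ((u + 1) * a) : ℤ) = b1 * ((u + 1) * k) + b2 * (k * b) + δ * x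
  ex : (δ = 1 ∧ t * x = k * b) ∨ (δ = -1 ∧ (t * x = a * b ∨ t * x = (u + 1) * a))
  dA : 0 < a2 → (u + 1) * a ∣ e * (a * b)
  d1 : 0 < b1 → (u + 1) * k ∣ e * (a * b)
  dB : 0 < b2 → k * b ∣ e * (a * b)

namespace Dt

variable {u k a b e t x a1 a2 b1 b2 : ℕ} {δ : ℤ} (h : Dt u k a b e t x a1 a2 b1 b2 δ)
include h

theorem t_pos : 0 < t :=
  Nat.pos_of_mul_pos_right (h.et ▸ Nat.mul_pos (by omega) (by have := h.uk; omega) : 0 < t * e)

theorem e_pos : 0 < e := by have := h.cnt; omega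

theorem cop_ka : k.Coprime a := by
  rw [h.ha]; simp

theorem cop_mb : (u + 1).Coprime b := by
  rw [h.hb]; simp

theorem a_pos : 0 < a := by rw [h.ha]; omega

theorem b_gt : k + 1 < b := by rw [h.hb]; have := h.u1; nlinarith

theorem key : ((u + 1) * k + 1 : ℤ) * (t * (a1 * (u * (k + 1) + 1) + a2 * u - b1 - b2 * (k + 1))) +
    (u + 1) * k = δ * (t * x) := by
  have h1 := h.deg
  have h2 := h.et
  have h3 := h.cnt
  rw [h.ha, h.hb] at h1
  zify at h2 h3
  push_cast at h1
  linear_combination t * h1 - h2 - t * h3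

theorem norm : (δ = 1 ∧ ∃ j, k = t * j ∧ e = (u + 1) * j ∧ x = j * b ∧
      a1 * (u * (k + 1) + 1) + a2 * u = b1 + b2 * (k + 1) + j) ∨
    (δ = -1 ∧ ∃ i, u + 1 = t * i ∧ e = i * k ∧ x = i * a ∧
      a1 * (u * (k + 1) + 1) + a2 * u + i = b1 + b2 * (k + 1)) ∨
    (δ = -1 ∧ t * x = a * b ∧ ∃ ρ, u * (k + 1) + 2 = t * ρ ∧
      a1 * (u * (k + 1) + 1) + a2 * u + ρ = b1 + b2 * (k + 1)) := by
  have key := h.key
  have ht := h.t_pos
  have het := h.et
  have hp : ((u + 1) * k + 1 : ℤ) ≠ 0 := by positivity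
  generalize hZ : (a1 * (u * (k + 1) + 1) + a2 * u - b1 - b2 * (k + 1) : ℤ) = Z at key
  rcases h.ex with ⟨e1, e2⟩ | ⟨e1, e2 | e2⟩
  · refine Or.inl ⟨e1, ?_⟩
    have h1 : (t * Z : ℤ) = k := mul_left_cancel₀ hp (by
      zify at e2; rw [e1, e2, h.hb] at key; push_cast at key; linear_combination key)
    obtain ⟨j, rfl⟩ := Int.eq_ofNat_of_zero_le (a := Z) (by
        by_contra h2
        have : (t : ℤ) * Z < 0 := mul_neg_of_pos_of_neg (by omega) (by omega)
        omega)
    have h2 : k = t * j := by exact_mod_cast h1.symm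
    refine ⟨j, h2, Nat.eq_of_mul_eq_mul_left ht (by rw [het, h2]; ring),
      Nat.eq_of_mul_eq_mul_left ht (by rw [e2, h2]; ring), by zify; linarith⟩
  · refine Or.inr (Or.inr ⟨e1, e2, ?_⟩)
    have h1 : (t * -Z : ℤ) = u * (k + 1) + 2 := mul_left_cancel₀ hp (by
      zify at e2; rw [e1, e2, h.ha, h.hb] at key; push_cast at key; linear_combination -key)
    obtain ⟨j, hj⟩ := Int.eq_ofNat_of_zero_le (a := -Z) (by
        by_contra h2
        have : (t : ℤ) * -Z < 0 := mul_neg_of_pos_of_neg (by omega) (by omega)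
        have : (0 : ℤ) ≤ u * (k + 1) := by positivity
        omega)
    rw [hj] at h1
    exact ⟨j, by exact_mod_cast h1.symm, by zify; linarith⟩
  · refine Or.inr (Or.inl ⟨e1, ?_⟩)
    have h1 : (t * -Z : ℤ) = u + 1 := mul_left_cancel₀ hp (by
      zify at e2; rw [e1, e2, h.ha] at key; push_cast at key; linear_combination -key)
    obtain ⟨j, hj⟩ := Int.eq_ofNat_of_zero_le (a := -Z) (by
        by_contra h2
        have : (t : ℤ) * -Z < 0 := mul_neg_of_pos_of_neg (by omega) (by omega)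
        omega)
    rw [hj] at h1
    have h2 : u + 1 = t * j := by exact_mod_cast h1.symm
    refine ⟨j, h2, Nat.eq_of_mul_eq_mul_left ht (by rw [het, h2]; ring),
      Nat.eq_of_mul_eq_mul_left ht (by rw [e2, h2]; ring), by zify; linarith⟩

theorem not_dvd_b {c d : ℕ} (e : c * b + (k + 1) = d * b) : False := by
  have h1 : b ∣ k + 1 := (Nat.dvd_add_right (dvd_mul_left b c)).1 (e ▸ dvd_mul_left b d)
  have := Nat.le_of_dvd (by omega) h1
  have := h.b_gt
  omega

theorem k_dvd (h2 : 0 < b2) : k ∣ e := by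
  have := h.dB h2
  rw [← mul_assoc] at this
  exact h.cop_ka.dvd_of_dvd_mul_right (Nat.dvd_of_mul_dvd_mul_right (by have := h.b_gt; omega) this)

theorem m_dvd (h2 : 0 < a2) : u + 1 ∣ e := by
  have := h.dA h2
  rw [mul_comm a, ← mul_assoc] at this
  exact h.cop_mb.dvd_of_dvd_mul_right (Nat.dvd_of_mul_dvd_mul_right h.a_pos this)

theorem t_dvd_m (h2 : 0 < b2) : t ∣ u + 1 := by
  obtain ⟨i, hi⟩ := h.k_dvd h2
  refine ⟨i, Nat.eq_of_mul_eq_mul_right (m := k) (by have := h.uk; omega) ?_⟩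
  rw [← h.et, hi]; ring

theorem t_dvd_k (h2 : 0 < a2) : t ∣ k := by
  obtain ⟨i, hi⟩ := h.m_dvd h2
  refine ⟨i, Nat.eq_of_mul_eq_mul_left (by omega : 0 < u + 1) ?_⟩
  rw [← h.et, hi]; ring

theorem t_dvd_n (h2 : 0 < b1) : t ∣ a * b := by
  have := h.d1 h2
  rw [← h.et, mul_comm t] at this
  exact Nat.dvd_of_mul_dvd_mul_left h.e_pos this

/-- The case `E1` with a character of degree `k b`. -/
theorem e1_b2 {ρ : ℕ} (h1 : u * (k + 1) + 2 = t * ρ) (ht : 2 ≤ t) (h2 : 0 < b2) :
    a2 = 0 ∧ ∃ i w, u + 1 = t * i ∧ e = i * k ∧ k = t * w + 1 ∧ ρ + w = i * (k + 1) ∧ 1 ≤ w := by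
  obtain ⟨i, hi⟩ := h.t_dvd_m h2
  have hk := h.uk
  have hu := h.u1
  have h3 : t * (i * (k + 1)) = t * ρ + (k - 1) := by
    rw [← mul_assoc, ← hi, ← h1]; zify [show 1 ≤ k by omega]; ring
  obtain ⟨w, hw⟩ : t ∣ k - 1 := (Nat.dvd_add_right (dvd_mul_right t ρ)).1 (h3 ▸ dvd_mul_right _ _)
  refine ⟨?_, i, w, hi, Nat.eq_of_mul_eq_mul_left h.t_pos (by rw [h.et, hi]; ring), by omega,
    Nat.eq_of_mul_eq_mul_left h.t_pos (by rw [h3, hw]; ring), ?_⟩
  · by_contra h4
    have h5 := h.t_dvd_k (Nat.pos_of_ne_zero h4)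
    rw [show k = t * w + 1 by omega] at h5
    have := Nat.le_of_dvd one_pos ((Nat.dvd_add_right (dvd_mul_right t w)).1 h5)
    omega
  · rcases Nat.eq_zero_or_pos w with rfl | h <;> omega

theorem nk (h0 : b1 = 0) : (0 < a2 ∨ (t = 1 ∧ δ = -1 ∧ x = (u + 1) * a)) ∧
    (u = 1 ∨ 0 < b2 ∨ (t = 1 ∧ δ = 1 ∧ x = k * b)) ∧
    (2 ≤ t → (δ = 1 ∧ t * x = k * b) ∨ (δ = -1 ∧ t * x = (u + 1) * a)) := by
  have hc := h.cnt
  have hu := h.u1
  have hk := h.uk
  have ht := h.t_pos
  have hb := h.hb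
  subst h0
  rcases h.norm with ⟨e1, j, e2, e3, e4, e5⟩ | ⟨e1, i, e2, e3, e4, e5⟩ | ⟨e1, e2, ρ, e3, e4⟩
  · refine ⟨Or.inl ?_, ?_, fun _ => Or.inl ⟨e1, by rw [e4, e2]; ring⟩⟩
    · by_contra h1
      obtain rfl : a2 = 0 := by omega
      refine h.not_dvd_b (c := a1) (d := j) ?_
      rw [e3] at hc
      zify at hc e5 hb ⊢
      rw [hb]
      linear_combination e5 + (k + 1) * hc
    · rcases Nat.eq_zero_or_pos b2 with rfl | h1
      · left
        have h2 : a1 ≤ a1 * (u * (k + 1) + 1) := Nat.le_mul_of_pos_right _ (by omega)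
        have h3 : a2 ≤ a2 * u := Nat.le_mul_of_pos_right _ hu
        have h4 : u * j ≤ 1 := by nlinarith
        have h5 : 1 ≤ j := by
          rcases Nat.eq_zero_or_pos j with rfl | h <;> omega
        nlinarith
      · exact Or.inr (Or.inl h1)
  · have hi : 1 ≤ i := by
      rcases Nat.eq_zero_or_pos i with rfl | h <;> omega
    refine ⟨?_, Or.inr (Or.inl ?_), fun _ => Or.inr ⟨e1, by rw [e4, e2]; ring⟩⟩
    · by_contra h1
      push Not at h1
      obtain rfl : a2 = 0 := by omega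
      have h2 : 2 ≤ t := by
        by_contra h2
        obtain rfl : t = 1 := by omega
        exact h1.2 rfl e1 (by rw [e4, e2, one_mul])
      have h3 : 2 * i ≤ u + 1 := e2 ▸ Nat.mul_le_mul_right _ h2
      have h4 : (a1 + i : ℤ) = (i * k - 1 - a1 * (u + 1)) * (k + 1) := by
        rw [e3] at hc; zify at hc e5; linear_combination e5 + (k + 1) * hc
      generalize hw : (i * k - 1 - a1 * (u + 1) : ℤ) = w at h4
      have h5 : 1 ≤ w := by
        by_contra h5
        have : w * (k + 1) ≤ 0 := mul_nonpos_of_nonpos_of_nonneg (by omega) (by omega)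
        omega
      have h6 : (k + 1 : ℤ) ≤ a1 + i := by nlinarith
      have h7 : (a1 : ℤ) * (2 * i) ≤ a1 * (u + 1) := mul_le_mul_of_nonneg_left (by omega) (by omega)
      have h8 : (k + 2 : ℤ) * i ≤ 2 * a1 * i := mul_le_mul_of_nonneg_right (by omega) (by omega)
      nlinarith
    · rcases Nat.eq_zero_or_pos b2 with rfl | h1 <;> omega
  · have hρ : 1 ≤ ρ := by
      rcases Nat.eq_zero_or_pos ρ with rfl | h <;> omega
    have h2 : 0 < b2 := by
      rcases Nat.eq_zero_or_pos b2 with rfl | h1 <;> omega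
    have h3 : t = 1 := by
      by_contra h3
      obtain ⟨rfl, i, w, f1, f2, f3, f4, -⟩ := h.e1_b2 e3 (by omega) h2
      refine h.not_dvd_b (c := a1) (d := w) ?_
      rw [f2] at hc
      zify at hc e4 hb f1 f3 f4 ⊢
      rw [hb]
      linear_combination e4 + (k + 1) * hc - f4 + (k + 1) * i * f3 - (k + 1) * w * f1
    refine ⟨Or.inl ?_, Or.inr (Or.inl h2), fun _ => by omega⟩
    by_contra h1
    obtain rfl : a2 = 0 := by omega
    subst h3
    refine h.not_dvd_b (c := a1 + 1) (d := k) ?_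
    have := h.et
    zify at hc e4 hb e3 this ⊢
    rw [hb]
    linear_combination e4 + (k + 1) * hc + e3 + (k + 1) * this

end Dt

/-- A character of degree `f` has defect zero for some prime divisor of `e`. -/
def Vz (g e f : ℕ) : Prop := ∃ s, s.Prime ∧ s ∣ e ∧ ∃ c, g = f * c ∧ ¬ s ∣ c

theorem vz {g e f c m : ℕ} (h1 : g = f * c) (hm : 2 ≤ m) (hme : m ∣ e) (hc : m.Coprime c) :
    Vz g e f := by
  obtain ⟨s, hs, hsm⟩ := Nat.exists_prime_and_dvd (show m ≠ 1 by omega)
  exact ⟨s, hs, hsm.trans hme, c, h1, fun h => hs.one_lt.ne' (Nat.eq_one_of_dvd_coprimes hc hsm h)⟩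

theorem cop_of_eq {X Y c d : ℕ} (h : 1 + X * c = Y * d) : c.Coprime d := by
  rw [Nat.coprime_iff_gcd_eq_one, ← Nat.dvd_one]
  exact (Nat.dvd_add_left ((Nat.gcd_dvd_left c d).mul_left X)).1
    (h ▸ (Nat.gcd_dvd_right c d).mul_left Y)

theorem cop_p {m k c : ℕ} (h : c ∣ m * k) : c.Coprime (m * k + 1) := by
  obtain ⟨d, hd⟩ := h
  rw [hd]; simp

namespace Dt

variable {u k a b e t x a1 a2 b1 b2 : ℕ} {δ : ℤ} (h : Dt u k a b e t x a1 a2 b1 b2 δ)
include h

theorem n_big : ((u + 1) * k + 1) * ((u + 1) * k + 1 + 1) < 2 * (a * b) := by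
  obtain ⟨v, hv⟩ : ∃ v, u = v + 1 := ⟨u - 1, by have := h.u1; omega⟩
  rw [h.ha, h.hb, hv]
  ring_nf
  nlinarith [Nat.zero_le (v * k), Nat.zero_le (v ^ 2 * k), Nat.zero_le (v ^ 2 * k ^ 2),
    Nat.zero_le (v ^ 3 * k), Nat.zero_le (v ^ 3 * k ^ 2), Nat.zero_le (v ^ 2)]

theorem size_one {c Y X : ℕ} (hc : 1 ≤ c) (e1 : c * (u * (k + 1) + 1) + X * u + 1 = Y * (k + 1))
    (e2 : c + X + Y = (u + 1) * k)
    (hs : c * (a * b) ^ 2 + Y * (k * b) ^ 2 ≤ ((u + 1) * k + 1) * ((u + 1) * k) * (a * b)) :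
    False := by
  have hu := h.u1
  have hk := h.uk
  have ha := h.ha
  have h1 : Y * (k + (u + 1)) + u = (u + 1 + c) * a := by
    zify at e1 e2 ha ⊢
    rw [ha]
    linear_combination -e1 + u * e2
  have h2 : (u + 1) * a ≤ Y * (2 * k) := by
    have : Y * (k + (u + 1)) ≤ Y * (2 * k) := Nat.mul_le_mul_left _ (by omega)
    have : 1 * a ≤ c * a := Nat.mul_le_mul_right _ hc
    have : u ≤ u * k := Nat.le_mul_of_pos_right _ (by omega)
    nlinarith
  have h3 := h.n_big
  have h4 : (u + 1) * k + 1 < b := by rw [h.hb]; nlinarith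
  have h5 : 0 < a * b := Nat.mul_pos h.a_pos (by omega)
  generalize hq : (u + 1) * k = q at *
  have h6 : (a * b) * (q * b) ≤ 2 * (Y * (k * b) ^ 2) := by
    calc _ = ((u + 1) * a) * (k * b ^ 2) := by rw [← hq]; ring
      _ ≤ Y * (2 * k) * (k * b ^ 2) := Nat.mul_le_mul_right _ h2
      _ = _ := by ring
  have h7 : 1 * (a * b) ^ 2 ≤ c * (a * b) ^ 2 := Nat.mul_le_mul_right _ hc
  have h8 : (a * b) * (2 * (a * b) + q * b) ≤ (a * b) * (2 * ((q + 1) * q)) := by nlinarith
  have h9 := Nat.le_of_mul_le_mul_left h8 h5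
  nlinarith

theorem kb (sz : a1 * (a * b) ^ 2 + b2 * (k * b) ^ 2 + t * x ^ 2 ≤ ((u + 1) * k + 1) * e * (a * b))
    (det : 0 < b1 → Even t)
    (gen : a1 = 0 → (0 < a2 → Vz (((u + 1) * k + 1) * e * (a * b)) e ((u + 1) * a)) →
      (0 < b2 → Vz (((u + 1) * k + 1) * e * (a * b)) e (k * b)) →
      Vz (((u + 1) * k + 1) * e * (a * b)) e x → False)
    (cyc : Even e → Odd (a * b) → False) :
    (δ = 1 ∧ a1 = 0 ∧ a2 = 1 ∧ b2 = 0 ∧ e = u + 1 ∧ x = b ∧ t = k ∧ (u = 1 ∨ k = u + 2)) ∨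
    (δ = -1 ∧ t * x = a * b ∧ a2 = 0 ∧ b2 = 0) ∨
    (a1 = 0 ∧ 0 < a2 ∧ b2 = 0 ∧ δ = -1 ∧ Even t ∧ t ∣ u + 2 ∧ ∃ j, k = t * j ∧ e = (u + 1) * j) := by
  have hc := h.cnt
  have hu := h.u1
  have hk := h.uk
  have ht := h.t_pos
  have het := h.et
  have hdeg := h.deg
  have c1 := h.cop_ka
  have c2 := h.cop_mb
  have hb := h.b_gt
  rcases Nat.lt_or_ge t 2 with ht2 | ht2
  · exfalso
    obtain rfl : t = 1 := by omega
    obtain rfl : b1 = 0 := by
      by_contra h1
      exact Nat.not_even_one (det (by omega))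
    rw [one_mul] at het sz
    have key : ∀ X Y, 1 + X * ((u + 1) * a) = Y * (k * b) →
        Vz (((u + 1) * k + 1) * e * (a * b)) e ((u + 1) * a) ∧
        Vz (((u + 1) * k + 1) * e * (a * b)) e (k * b) := fun X Y hXY => by
      have := cop_of_eq hXY
      exact ⟨vz (c := ((u + 1) * k + 1) * (k * b)) (m := u + 1) (by rw [het]; ring) (by omega)
        (het ▸ dvd_mul_right _ _) ((cop_p (dvd_mul_right _ _)).mul_right
          (this.coprime_dvd_left (dvd_mul_right _ _))),
        vz (c := ((u + 1) * k + 1) * ((u + 1) * a)) (m := k) (by rw [het]; ring) (by omega)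
        (het ▸ dvd_mul_left _ _) ((cop_p (dvd_mul_left _ _)).mul_right
          (this.symm.coprime_dvd_left (dvd_mul_right _ _)))⟩
    rcases h.norm with ⟨e1, j, e2, e3, e4, e5⟩ | ⟨e1, i, e2, e3, e4, e5⟩ | ⟨e1, e2, ρ, e3, e4⟩
    · rw [one_mul] at e2
      subst e2
      rcases Nat.eq_zero_or_pos a1 with rfl | h1
      · obtain ⟨k1, k2⟩ := key a2 (b2 + 1) (by
          rw [e1, e4] at hdeg; zify; push_cast at hdeg; linear_combination hdeg)
        exact gen rfl (fun _ => k1) (fun _ => k2) (e4 ▸ k2)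
      · exact h.size_one (X := a2) (Y := b2 + 1) h1 (by linarith) (by omega)
          (by rw [e4, het] at sz; linarith)
    · rw [one_mul] at e2
      subst e2
      rcases Nat.eq_zero_or_pos a1 with rfl | h1
      · obtain ⟨k1, k2⟩ := key (a2 + 1) b2 (by
          rw [e1, e4] at hdeg; zify; push_cast at hdeg; linear_combination hdeg)
        exact gen rfl (fun _ => k1) (fun _ => k2) (e4 ▸ k1)
      · exact h.size_one (X := a2 + 1) (Y := b2) h1 (by linarith) (by omega)
          (by rw [het] at sz; linarith [Nat.zero_le (x ^ 2)])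
    · rw [one_mul] at e2 e3
      exact h.size_one (c := a1 + 1) (X := a2) (Y := b2) (by omega) (by linarith) (by omega)
        (by rw [e2, het] at sz; linarith)
  obtain rfl : a1 = 0 := by
    by_contra h1
    have h2 : 1 * (a * b) ^ 2 ≤ a1 * (a * b) ^ 2 := Nat.mul_le_mul_right _ (by omega)
    have h3 := h.n_big
    have h4 : 2 * e ≤ (u + 1) * k := het ▸ Nat.mul_le_mul_right _ ht2
    have h5 : (a * b) * (a * b) ≤ ((u + 1) * k + 1) * e * (a * b) := by
      nlinarith [Nat.zero_le (b2 * (k * b) ^ 2), Nat.zero_le (t * x ^ 2)]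
    have h6 := Nat.le_of_mul_le_mul_right h5 (by omega)
    nlinarith
  rcases h.norm with ⟨e1, j, e2, e3, e4, e5⟩ | ⟨e1, i, e2, e3, e4, e5⟩ | ⟨e1, e2, ρ, e3, e4⟩
  · have hj : 1 ≤ j := by
      rcases Nat.eq_zero_or_pos j with rfl | h <;> omega
    have hjk : j ∣ k := e2 ▸ dvd_mul_left _ _
    have h1 : 0 < b1 → t ∣ u + 2 := fun h1 => by
      have h2 : t ∣ b := (c1.coprime_dvd_left (e2 ▸ dvd_mul_right _ _)).dvd_of_dvd_mul_left
        (h.t_dvd_n h1)
      rw [h.hb, e2, show (u + 1) * (t * j + 1) + 1 = t * ((u + 1) * j) + (u + 2) by ring] at h2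
      exact (Nat.dvd_add_right (dvd_mul_right _ _)).1 h2
    rcases Nat.eq_zero_or_pos b2 with rfl | h2
    · have h3 : 1 + a2 * (u + 1) = (u + 2) * j := by rw [e3] at hc; nlinarith
      have h4 := cop_of_eq h3
      obtain rfl : j = 1 := by
        by_contra h5
        refine gen rfl (fun _ => vz (c := ((u + 1) * k + 1) * (j * b)) (m := u + 1)
          (by rw [e3]; ring) (by omega) (e3 ▸ dvd_mul_right _ _)
          ((cop_p (dvd_mul_right _ _)).mul_right (h4.mul_right c2))) (fun h => by omega)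
          (vz (c := ((u + 1) * k + 1) * ((u + 1) * a)) (m := j) (by rw [e3, e4]; ring) (by omega)
            (e3 ▸ dvd_mul_left _ _) ((cop_p (hjk.mul_left _)).mul_right
              (h4.symm.mul_right (c1.coprime_dvd_left hjk))))
      have h5 : a2 = 1 := Nat.eq_of_mul_eq_mul_right (by omega : 0 < u + 1) (by omega)
      refine Or.inl ⟨e1, rfl, h5, rfl, by omega, by omega, by omega, ?_⟩
      by_contra h6
      have h7 := h1 (by omega)
      have h8 := Nat.le_of_dvd (by omega) h7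
      have h9 : t = u + 1 := by omega
      rw [h9, show u + 2 = u + 1 + 1 from rfl, Nat.dvd_add_right dvd_rfl, Nat.dvd_one] at h7
      omega
    · exfalso
      have h3 := h.t_dvd_m h2
      obtain rfl : b1 = 0 := by
        by_contra h4
        have h5 := h1 (by omega)
        rw [show u + 2 = u + 1 + 1 from rfl, Nat.dvd_add_right h3, Nat.dvd_one] at h5
        omega
      have h4 : 1 + a2 * ((u + 1) * a) = (b2 * t + 1) * (j * b) := by
        rw [e1, e4, e2] at hdeg; zify; push_cast at hdeg; linear_combination hdeg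
      have h5 := cop_of_eq h4
      obtain rfl : j = 1 := by
        by_contra h6
        have h7 : j.Coprime (((u + 1) * k + 1) * ((u + 1) * a)) :=
          (cop_p (hjk.mul_left _)).mul_right (h5.symm.coprime_dvd_left (dvd_mul_right _ _))
        obtain ⟨i, hi⟩ := h3
        refine gen rfl (fun _ => vz (c := ((u + 1) * k + 1) * (j * b)) (m := u + 1)
          (by rw [e3]; ring) (by omega) (e3 ▸ dvd_mul_right _ _)
          ((cop_p (dvd_mul_right _ _)).mul_right (h5.coprime_dvd_left (dvd_mul_right _ _))))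
          (fun _ => vz (c := ((u + 1) * k + 1) * (i * a)) (m := j) (by rw [e3, hi, e2]; ring)
            (by omega) (e3 ▸ dvd_mul_left _ _) (h7.coprime_dvd_right (Nat.mul_dvd_mul_left _
              (Nat.mul_dvd_mul_right (hi ▸ dvd_mul_left _ _) _))))
          (vz (c := ((u + 1) * k + 1) * ((u + 1) * a)) (m := j) (by rw [e3, e4]; ring) (by omega)
            (e3 ▸ dvd_mul_left _ _) h7)
      have h6 := Nat.le_of_dvd (by omega) h3
      have h7 : k = u + 1 := by omega
      rcases Nat.even_or_odd k with h8 | h8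
      · refine cyc (by rw [e3, mul_one, ← h7]; exact h8) (Nat.odd_mul.2 ⟨?_, ?_⟩)
        · rw [h.ha]; exact (h8.mul_left u).add_one
        · rw [h.hb, ← h7]; exact (h8.mul_right _).add_one
      · have h9 : k * (2 * b2 + 2) = k * k := by
          rw [e3] at hc; zify at hc e5 h7 ⊢; rw [h7] at e5 ⊢
          linear_combination -e5 + u * hc
        have := Nat.eq_of_mul_eq_mul_left (by omega) h9
        obtain ⟨c, hc⟩ := h8
        omega
  · exfalso
    have hi : 1 ≤ i := by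
      rcases Nat.eq_zero_or_pos i with rfl | h <;> omega
    have h1 : 0 < b1 → t ∣ a := fun h1 =>
      (c2.coprime_dvd_left (e2 ▸ dvd_mul_right _ _)).dvd_of_dvd_mul_right (h.t_dvd_n h1)
    rcases Nat.eq_zero_or_pos a2 with rfl | h2
    · have h3 : b2 ≤ b2 * (k + 1) := Nat.le_mul_of_pos_right _ (by omega)
      have h4 : i * 2 ≤ i * k := Nat.mul_le_mul_left _ (by omega)
      obtain rfl : i = 1 := by omega
      obtain rfl : k = 2 := by omega
      obtain rfl : u = 1 := by omega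
      obtain rfl : t = 2 := by omega
      have := h1 (by omega)
      have := h.ha
      omega
    · obtain ⟨j, hj⟩ := h.t_dvd_k h2
      obtain rfl : b1 = 0 := by
        by_contra h4
        have := Nat.eq_one_of_dvd_coprimes c1 (hj ▸ dvd_mul_right _ _) (h1 (by omega))
        omega
      have h4 : 1 + (a2 * t + 1) * (i * a) = b2 * (k * b) := by
        rw [e1, e4] at hdeg; zify at e2 ⊢; push_cast at hdeg
        linear_combination hdeg - a2 * a * e2
      have h5 := cop_of_eq h4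
      obtain rfl : i = 1 := by
        by_contra h6
        have him : i ∣ u + 1 := e2 ▸ dvd_mul_left _ _
        have h7 : i.Coprime (((u + 1) * k + 1) * (k * b)) :=
          (cop_p (him.mul_right _)).mul_right (h5.coprime_dvd_left (dvd_mul_right _ _))
        refine gen rfl (fun _ => vz (c := ((u + 1) * k + 1) * (j * b)) (m := i)
          (by rw [e3, e2, hj]; ring) (by omega) (e3 ▸ dvd_mul_right _ _)
          (h7.coprime_dvd_right (Nat.mul_dvd_mul_left _
              (Nat.mul_dvd_mul_right (hj ▸ dvd_mul_left _ _) _))))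
          (fun _ => vz (c := ((u + 1) * k + 1) * (i * a)) (m := k) (by rw [e3]; ring)
            (by omega) (e3 ▸ dvd_mul_left _ _) ((cop_p (dvd_mul_left _ _)).mul_right
              (h5.symm.coprime_dvd_left (dvd_mul_right _ _))))
          (vz (c := ((u + 1) * k + 1) * (k * b)) (m := i) (by rw [e3, e4]; ring) (by omega)
            (e3 ▸ dvd_mul_right _ _) h7)
      obtain rfl : t = u + 1 := by omega
      have h6 : (u + 1) * (u * j) + 2 = (u + 1) * (b2 * (j + 1) + 1) := by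
        rw [e3] at hc; zify at hc e5 hj ⊢; rw [hj] at e5 hc
        linear_combination e5 - u * hc
      have h7 := Nat.le_of_dvd two_pos
        ((Nat.dvd_add_right (dvd_mul_right _ _)).1 (h6 ▸ dvd_mul_right _ _))
      obtain rfl : u = 1 := by omega
      have h8 : 1 * (j + 1) ≤ b2 * (j + 1) := Nat.mul_le_mul_right _ (by
        rcases Nat.eq_zero_or_pos b2 with rfl | h <;> omega)
      omega
  · rcases Nat.eq_zero_or_pos b2 with rfl | h2
    · rcases Nat.eq_zero_or_pos a2 with rfl | h3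
      · exact Or.inr (Or.inl ⟨e1, e2, rfl, rfl⟩)
      · obtain ⟨j, hj⟩ := h.t_dvd_k h3
        have hρ : 1 ≤ ρ := by
          rcases Nat.eq_zero_or_pos ρ with rfl | h <;> omega
        refine Or.inr (Or.inr ⟨rfl, h3, rfl, e1, det (by omega), ?_, j, hj,
          Nat.eq_of_mul_eq_mul_left ht (by rw [het, hj]; ring)⟩)
        rw [hj, show u * (t * j + 1) + 2 = t * (u * j) + (u + 2) by ring] at e3
        exact (Nat.dvd_add_right (dvd_mul_right _ _)).1 (e3 ▸ dvd_mul_right _ _)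
    · exfalso
      obtain ⟨rfl, i, w, f1, f2, f3, f4, f5⟩ := h.e1_b2 e3 ht2 h2
      have h3 : 2 * i ≤ u + 1 := f1 ▸ Nat.mul_le_mul_right _ ht2
      have h4 : 1 * k ≤ b2 * k := Nat.mul_le_mul_right _ h2
      nlinarith

end Dt

end CF.NpSq
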