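import Mathlib
import Cfsg.Agent.Small.Fb4
import Cfsg.Agent.Small.Br5
import Cfsg.Agent.Fgs3.SylCount

/-!
# Fewer than `p²` Sylow subgroups, III: characters constant on the `p`-singular elements
-/

set_option autoImplicit false
set_option linter.unusedSectionVars false

namespace CF.NpSq

open Subgroup CF.BlockB Cfsg CF.PF CF.Small CF.Small.PSet
open scoped ComplexConjugate

variable {p : ℕ} [hp : Fact p.Prime] {G : Type*} [Group G] [Finite G] {S : PSet p G}
  {χ : G → ℂ} {ε : ℤ} {α : ℕ}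

theorem sum_zp_mul (hχ : IsCh ⊤ χ) {y : G} (hy : y ∈ S.K) :
    ∑ i, χ (S.zp i * y) = p * ∑ θ ∈ irr S.K, S.am χ θ 0 * θ y := by
  have hc : ∀ k ∈ S.K, ∀ x, χ (k * x * k⁻¹) = χ x := fun k _ x =>
    Char.char_isClassFunction (isCh_top.1 hχ) x k
  simp only [apply_eq_sum hc _ hy]
  rw [Finset.sum_comm, Finset.mul_sum]
  refine Finset.sum_congr rfl fun θ hθ => ?_
  rw [← Finset.sum_mul, ← mul_assoc]
  congr 1
  simp only [d_eq_sum]
  rw [Finset.sum_comm, Finset.sum_eq_single 0]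
  · simp [ec_zero, coe_am hχ hθ]
  · intro j _ hj
    rw [← Finset.mul_sum]
    simp only [mul_comm j]
    rw [sum_ec_mul, if_neg hj, mul_zero]
  · simp

theorem norm_le_mu (hχ : IsCh ⊤ χ) {q : G} (hq : q ∈ S.N) (hq' : q ∉ S.C) :
    ‖χ q‖ ≤ mu S.P χ (triv S.P) := by
  have h1 := hχ.res (le_top (a := S.N))
  have h2 : mu S.P χ (triv S.P) = mu S.P (res S.N χ) (triv S.P) := by
    rw [mu, mu, ip_congr _ (fun x hx => res_of_mem χ (S.P_le_N hx)) fun _ _ => rfl]
  rw [h2, mu_eq_sum_mu S.P_le_N h1 (isCh_triv _), ← res_of_mem χ hq,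
    congrFun (IsCh.eq_sum_mu h1) q, Finset.sum_apply]
  push_cast
  refine (norm_sum_le _ _).trans (Finset.sum_le_sum fun φ hφ => ?_)
  rw [Pi.smul_apply, smul_eq_mul, norm_mul, Complex.norm_natCast]
  refine mul_le_mul_of_nonneg_left ?_ (Nat.cast_nonneg _)
  by_cases hk : S.P ≤ Char.charKer φ
  · have := coe_mu S.P_le_N (isCh_of_irr hφ) (isCh_triv _)
    rw [ip_triv_of_le_ker hk] at this
    refine ((isCh_of_irr hφ).norm_le q).trans_eq ?_
    rw [← this, Complex.norm_natCast]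
  · rw [irr_apply_eq_zero_of_fpf S.P_le_N le_rfl hφ hk fun u hu e => ?_, norm_zero]
    · exact Nat.cast_nonneg _
    obtain ⟨i, rfl⟩ := S.mem_P_iff.1 hu
    by_contra hi
    exact hq' (S.mem_C_of_commute (mt S.zp_eq_one_iff.2 hi) e.symm)

theorem v_sum_lt {s : ℕ} {M : Ideal AlgInt} (hM : IsPModular s M) {w : G} {k : ℕ}
    (hw : w ^ s ^ k = 1) (T : Finset G) (h1 : ∀ g ∈ T, w * g * w⁻¹ ∈ T)
    (h2 : ∀ g ∈ T, w * g * w⁻¹ ≠ g) (F : G → ℂ) (h3 : ∀ g, F (w * g * w⁻¹) = F g)
    (h4 : ∀ g, IsIntegral ℤ (F g)) : v M (∑ g ∈ T, F g) < 1 := by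
  classical
  have := Fact.mk hM.1
  rw [← Finset.sum_fiberwise_of_maps_to (t := T.image F) (g := F)
    fun g hg => Finset.mem_image_of_mem F hg]
  refine Valuation.map_sum_lt _ one_ne_zero fun c hc => ?_
  obtain ⟨g, -, rfl⟩ := Finset.mem_image.1 hc
  rw [Finset.sum_congr rfl (g := fun _ => F g) fun x hx => (Finset.mem_filter.1 hx).2,
    Finset.sum_const, nsmul_eq_mul, map_mul]
  refine mul_lt_one_of_lt_of_le ((v_natCast_lt_one_iff hM _).2 ?_) (v_le_one_of_isIntegral M (h4 g))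
  have : Finite (ConjAct G) := inferInstanceAs (Finite G)
  have h5 := Fgs3.ncard_modEq_fixedBy (G := ConjAct G) (p := s) (g := ConjAct.toConjAct w) (k := k)
    (by rw [← map_pow, hw, map_one]) (↑(T.filter fun x => F x = F g) : Set G) (Finset.finite_toSet _)
    (fun x hx => by
      rw [Finset.mem_coe, Finset.mem_filter] at hx ⊢
      rw [ConjAct.smul_def, ConjAct.ofConjAct_toConjAct]
      exact ⟨h1 x hx.1, (h3 x).trans hx.2⟩)
  rw [Set.ncard_coe_finset, Set.eq_empty_of_forall_notMem (s := {x | x ∈ (↑(T.filter fun x =>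
    F x = F g) : Set G) ∧ ConjAct.toConjAct w • x = x}) fun x hx =>
    h2 x (Finset.mem_filter.1 hx.1).1 hx.2, Set.ncard_empty] at h5
  exact (Nat.modEq_zero_iff_dvd).1 h5

variable (S χ ε α) in
/-- An irreducible character that is constantly `ε` on the `p`-singular elements. -/
structure Cn : Prop where
  irr : χ ∈ irr (⊤ : Subgroup G)
  sg : ε = 1 ∨ ε = -1
  val : ∀ i ≠ 0, ∀ y ∈ S.K, χ (S.zp i * y) = ε
  deg : (charDegree χ : ℤ) = α * p + ε

namespace Cn

variable (h : Cn S χ ε α)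
include h

theorem ch : IsCh ⊤ χ := isCh_of_irr h.irr

theorem one : χ 1 = α * p + ε := by
  rw [← coe_deg h.ch]; exact_mod_cast congrArg (Int.cast : ℤ → ℂ) h.deg

theorem int {y : G} (hy : y ∈ S.K) : IsIntegral ℤ ((χ y - ε) / p) := by
  have h1 := sum_zp_mul h.ch hy
  rw [← Finset.add_sum_erase _ _ (Finset.mem_univ 0), zp_zero, one_mul,
    Finset.sum_congr rfl fun i hi => h.val i (Finset.ne_of_mem_erase hi) y hy, Finset.sum_const,
    Finset.card_erase_of_mem (Finset.mem_univ _), Finset.card_univ, ZMod.card, nsmul_eq_mul,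
    Nat.cast_sub hp.out.one_le] at h1
  have : (χ y - ε) / p = ∑ θ ∈ PF.irr S.K, S.am χ θ 0 * θ y - ε := by
    rw [div_eq_iff natCast_p_ne_zero]; push_cast at h1; linear_combination h1
  rw [this]
  refine (IsIntegral.sum _ fun θ hθ => (isIntegral_natCast _).mul ?_).sub (isIntegral_intCast _)
  exact Char.char_isIntegral (isCh_of_irr hθ).2 ⟨y, hy⟩

theorem mu_eq : (mu S.P χ (triv S.P) : ℤ) = α + ε := by
  have h1 := mu_P_val (S := S) h.ch (c := (p - 1) * ε) (by
    rw [Finset.sum_congr rfl fun i hi => by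
      rw [← mul_one (S.zp i), h.val i (Finset.ne_of_mem_erase hi) 1 (one_mem _)], Finset.sum_const,
      Finset.card_erase_of_mem (Finset.mem_univ _), Finset.card_univ, ZMod.card, nsmul_eq_mul,
      Nat.cast_sub hp.out.one_le, Nat.cast_one])
  have h2 : (p * mu S.P χ (triv S.P) : ℤ) = charDegree χ + (p - 1) * ε := by exact_mod_cast h1
  rw [h.deg] at h2
  exact mul_left_cancel₀ (Int.natCast_ne_zero.2 hp.out.ne_zero) (by linear_combination h2)

theorem v_sub {s : ℕ} {M : Ideal AlgInt} (hM : IsPModular s M) (hs : s ≠ p) {w : G} {k : ℕ}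
    (hw : orderOf w = s ^ k) : v M ((χ w - ε) / p - α) < 1 := by
  have h1 := v_char_mul_sub_lt_one hM (isCh_top.1 h.ch) (Commute.one_right w) ⟨k, hw⟩
  have h2 : (χ w - ε) / p - α = (χ (w * 1) - χ 1) / p := by
    rw [mul_one, h.one]; field_simp [natCast_p_ne_zero (p := p)]; ring
  rwa [h2, map_div₀, (v_natCast_eq_one_iff hM p).2 fun e =>
    hs ((Nat.prime_dvd_prime_iff_eq hM.1 hp.out).1 e), div_one]

theorem star (hα : α + ε + 1 < p) {s k : ℕ} (hs : s.Prime) {w g : G} (hw : w ∈ S.K)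
    (ho : orderOf w = s ^ k) (h1 : g * w * g⁻¹ ∈ S.N) (h2 : g * w * g⁻¹ ∉ S.C) : s ∣ α := by
  have hsp : s ≠ p := by
    rintro rfl
    rcases Nat.eq_zero_or_pos k with rfl | hk
    · rw [pow_zero, orderOf_eq_one_iff] at ho
      exact h2 (by simpa [ho] using one_mem S.C)
    · exact S.K_reg hw (ho ▸ dvd_pow_self _ hk.ne')
  have key : ∀ σ : ℂ ≃+* ℂ, ‖σ ((χ w - ε) / p)‖ < 1 := fun σ => by
    obtain ⟨m, hm, hσ⟩ := Char.aut_exists_gen_pow (G := G) σ.toRingHom
    have e := hσ χ (mem_ZIrr_top.1 h.ch.zirr) w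
    have h3 : (g * w * g⁻¹) ^ m ∉ S.C := fun h3 => by
      obtain ⟨c, hc⟩ := exists_pow_eq_self_of_coprime
        (hm.coprime_dvd_right (orderOf_dvd_natCard (g * w * g⁻¹)))
      exact h2 (hc ▸ pow_mem h3 c)
    have h4 := norm_le_mu h.ch (pow_mem h1 m) h3
    rw [conj_pow, Char.char_isClassFunction (isCh_top.1 h.ch)] at h4
    have h5 : (mu S.P χ (triv S.P) : ℝ) = α + ε := by exact_mod_cast h.mu_eq
    have h6 : ‖(ε : ℂ)‖ = 1 := by rcases h.sg with e | e <;> simp [e]
    have h7 : (α + ε + 1 : ℝ) < p := by exact_mod_cast hα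
    rw [map_div₀, map_sub, map_intCast, map_natCast, norm_div, Complex.norm_natCast,
      div_lt_one (by exact_mod_cast hp.out.pos)]
    change σ (χ w) = _ at e
    rw [e]
    linarith [norm_sub_le (χ (w ^ m)) ε]
  have h3 : (χ w - ε) / p = 0 := by
    by_contra h3
    obtain ⟨n, hn, e⟩ := Char.kronecker (h.int hw) h3 fun σ => (key σ).le
    exact (key (RingEquiv.refl ℂ)).ne (Char.norm_eq_one_of_pow_eq_one' hn.ne' e)
  obtain ⟨M, hM⟩ := exists_isPModular hs
  have := h.v_sub hM hsp ho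
  rwa [h3, zero_sub, Valuation.map_neg, v_natCast_lt_one_iff hM] at this

theorem cong {s : ℕ} {M : Ideal AlgInt} (hM : IsPModular s M) {w : G} {k : ℕ} (hw : w ∈ S.K)
    (ho : orderOf w = s ^ k) (hc : ∀ g, Commute g w → g ∈ S.N) (j : ZMod p) :
    v M (S.C.index * ε / charDegree χ * χ (S.zp j * w) - S.fi * ε -
      if -j ∈ S.As then χ w - ε else 0) < 1 := by
  classical
  have := Fintype.ofFinite G
  have h1 := Char.sum_class_mul (mem_irr_top.1 h.irr) S.z (S.zp j * w)
  have hz : χ S.z = ε := by simpa using h.val 1 one_ne_zero 1 (one_mem _)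
  rw [Small.card_isConj_eq_index, centralizer_z, hz, ← coe_deg h.ch,
    ← Finset.sum_filter_add_sum_filter_not _ fun x => Commute x w] at h1
  have h2 : (Finset.univ.filter fun x => IsConj S.z x).filter (fun x => Commute x w) =
      S.As.image S.zp := by
    ext x
    simp only [Finset.mem_filter, Finset.mem_univ, true_and, Finset.mem_image, mem_As]
    constructor
    · rintro ⟨h2, h3⟩
      obtain ⟨g, rfl⟩ := isConj_iff.1 h2
      obtain ⟨u, hu, y, hy, e⟩ := S.H_mul _ (hc _ h3)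
      have h4 : y ∈ S.P ⊔ zpowers (g * S.z * g⁻¹) := by
        rw [show y = u⁻¹ * (g * S.z * g⁻¹) by rw [e]; group]
        exact mul_mem (mem_sup_left (inv_mem hu)) (mem_sup_right (mem_zpowers _))
      have h5 : g * S.z * g⁻¹ ∈ S.P := by
        have h6 : IsPGroup p (S.P ⊔ zpowers (g * S.z * g⁻¹) : Subgroup G) :=
          IsPGroup.to_sup_of_normal_left' (IsPGroup.of_card (n := 1) (by rw [S.card_P, pow_one]))
            (IsPGroup.of_card (n := 1) (by
              rw [Nat.card_zpowers, ← MulAut.conj_apply, MulEquiv.orderOf_eq, S.ord, pow_one]))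
            (zpowers_le.2 (hc _ h3))
        obtain ⟨n, hn⟩ := (IsPGroup.iff_orderOf.1 h6) ⟨y, h4⟩
        rw [orderOf_mk] at hn
        rcases Nat.eq_zero_or_pos n with rfl | h0
        · rw [pow_zero, orderOf_eq_one_iff] at hn
          rwa [e, hn, mul_one]
        · exact absurd (hn ▸ dvd_pow_self p h0.ne') (S.not_dvd_orderOf_of_mem_H hy)
      have h6 := S.mem_N_of_conj (mem_zpowers _) S.z_ne_one h5
      exact ⟨_, ⟨g, h6, rfl⟩, (S.conj_z h6).symm⟩
    · rintro ⟨_, ⟨n, hn, rfl⟩, rfl⟩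
      exact ⟨isConj_iff.2 ⟨n, S.conj_z hn⟩, (S.commute_zp (S.K_le_C hw) _).symm⟩
  rw [h2, Finset.sum_image fun a _ b _ e => S.zp_injective e] at h1
  have h3 : ∑ a ∈ S.As, χ (S.zp a * (S.zp j * w)) =
      S.fi * ε + if -j ∈ S.As then χ w - ε else 0 := by
    rw [Finset.sum_congr rfl (g := fun a => (ε : ℂ) + if a = -j then χ w - ε else 0) fun a _ => by
      rw [← mul_assoc, ← zp_add]
      split_ifs with e
      · rw [e, neg_add_cancel, zp_zero, one_mul]; ring
      · rw [h.val _ (fun e' => e (eq_neg_of_add_eq_zero_left e')) w hw, add_zero],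
      Finset.sum_add_distrib, Finset.sum_const, card_As, nsmul_eq_mul, Finset.sum_ite_eq']
  have hcw : Commute w (S.zp j * w) := (S.commute_zp (S.K_le_C hw) j).mul_right (Commute.refl w)
  have h4 := v_sum_lt hM (k := k) (ho ▸ pow_orderOf_eq_one w)
    ((Finset.univ.filter fun x => IsConj S.z x).filter fun x => ¬ Commute x w)
    (fun g hg => by
      simp only [Finset.mem_filter, Finset.mem_univ, true_and] at hg ⊢
      refine ⟨hg.1.trans (isConj_iff.2 ⟨w, rfl⟩), fun e => hg.2 ?_⟩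
      have := e.eq
      rw [inv_mul_cancel_right, mul_assoc w g, mul_right_inj, ← mul_assoc,
        eq_mul_inv_iff_mul_eq] at this
      exact this)
    (fun g hg e => (Finset.mem_filter.1 hg).2 (mul_inv_eq_iff_eq_mul.1 e).symm)
    (fun x => χ (x * (S.zp j * w))) (fun g => by
      rw [← Char.char_isClassFunction (isCh_top.1 h.ch) (g * (S.zp j * w)) w]
      congr 1
      rw [← mul_assoc w g, mul_assoc (w * g) _ w⁻¹, ← hcw.inv_left.eq, ← mul_assoc (w * g)])
    fun g => Char.char_isIntegral (isCh_top.1 h.ch) _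
  convert h4 using 2
  rw [h3] at h1
  linear_combination -h1

theorem dvd_of_ti {s : ℕ} (hs : s.Prime) {w : G} (hw : w ∈ S.K) (ho : orderOf w = s)
    (hc : ∀ g, Commute g w → g ∈ S.N) :
    s ∣ α ∨ (S.fi = p - 1 ∧ (s : ℤ) ∣ α + ε) := by
  classical
  obtain ⟨M, hM⟩ := exists_isPModular hs
  have hsp : s ≠ p := fun e => S.K_reg hw (by rw [ho, e])
  have ho' : orderOf w = s ^ 1 := by rw [ho, pow_one]
  have hvp : v M (p : ℂ) = 1 := (v_natCast_eq_one_iff hM p).2 fun e =>
    hsp ((Nat.prime_dvd_prime_iff_eq hs hp.out).1 e)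
  have hp0 := natCast_p_ne_zero (p := p)
  have h0 := h.v_sub hM hsp ho'
  have h1 := h.cong hM hw ho' hc
  have hz : χ S.z = ε := by simpa using h.val 1 one_ne_zero 1 (one_mem _)
  have hω := v_le_one_of_isIntegral M (isIntegral_omega h.irr S.z)
  rw [centralizer_z, hz] at hω
  generalize (S.C.index * ε / charDegree χ : ℂ) = ω at h1 hω
  obtain ⟨φ, hφ⟩ : ∃ φ, χ w = ε + p * φ := ⟨(χ w - ε) / p, by field_simp; ring⟩
  rw [hφ, add_sub_cancel_left, mul_div_cancel_left₀ _ hp0] at h0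
  have hA := h1 (-1)
  rw [neg_neg, if_pos (mem_As.2 ⟨1, one_mem _, S.act_one⟩),
    h.val _ (neg_ne_zero.2 one_ne_zero) w hw, hφ] at hA
  by_cases h2 : v M φ < 1
  · left
    rw [← v_natCast_lt_one_iff hM, show (α : ℂ) = φ - (φ - α) by ring]
    exact Valuation.map_sub_lt _ h2 h0
  right
  have h3 : v M φ = 1 := le_antisymm (by
    rw [show φ = φ - α + α by ring]
    exact Valuation.map_add_le _ h0.le (v_natCast_le_one M α)) (not_lt.1 h2)
  have h4 : S.As = Finset.univ.erase 0 := by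
    refine Finset.Subset.antisymm (fun a ha => Finset.mem_erase.2 ⟨ne_zero_of_mem_As ha,
      Finset.mem_univ _⟩) fun a ha => by_contra fun ha' => h2 ?_
    have hB := h1 (-a)
    rw [neg_neg, if_neg ha', h.val _ (neg_ne_zero.2 (Finset.ne_of_mem_erase ha)) w hw] at hB
    have := Valuation.map_sub_lt _ hB hA
    rwa [show ω * ε - S.fi * ε - 0 - (ω * ε - S.fi * ε - (ε + p * φ - ε)) = p * φ by ring, map_mul,
      hvp, one_mul] at this
  have h5 : S.fi = p - 1 := by
    rw [← card_As, h4, Finset.card_erase_of_mem (Finset.mem_univ _), Finset.card_univ, ZMod.card]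
  refine ⟨h5, ?_⟩
  have hB := h1 0
  rw [neg_zero, if_neg fun e => ne_zero_of_mem_As e rfl, zp_zero, one_mul, hφ] at hB
  have h6 := Valuation.map_sub_lt _ hB hA
  rw [show ω * (ε + p * φ) - S.fi * ε - 0 - (ω * ε - S.fi * ε - (ε + p * φ - ε)) =
    p * φ * (ω + 1) by ring, map_mul, map_mul, hvp, h3, one_mul, one_mul] at h6
  have h7 : v M ((ω + 1) * ε) < 1 := by
    rw [map_mul]; exact mul_lt_one_of_lt_of_le h6 (v_intCast_le_one M ε)
  have h8 := Valuation.map_sub_lt _ h7 hA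
  rw [h5, Nat.cast_sub hp.out.one_le, show (ω + 1) * ε - (ω * ε - (p - (1 : ℕ)) * ε -
    (ε + p * φ - ε)) = p * (φ + ε) by push_cast; ring, map_mul, hvp, one_mul] at h8
  rw [← v_intCast_lt_one_iff hM, show (((α : ℤ) + ε : ℤ) : ℂ) = φ + ε - (φ - α) by push_cast; ring]
  exact Valuation.map_sub_lt _ h8 h0

end Cn

end CF.NpSq
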