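import Mathlib
import Cfsg.Agent.Small.Br5
import Cfsg.Agent.Fgs3.SylCount

/-!
# Fewer than `p²` Sylow subgroups, IV: the geometry of the intersections of the groups `O_{p'}(C(P))`
-/

set_option autoImplicit false
set_option linter.unusedSectionVars false

namespace CF.NpSq

open Subgroup CF.BlockB CF.Small Finset

theorem comb {Ω ι : Type*} [Fintype Ω] [DecidableEq ι] (I : Ω → ι → Prop) [∀ a b, Decidable (I a b)]
    (L : Finset ι) {p σ l : ℕ} (h1 : ∀ m ∈ L, #(univ.filter fun a => I a m) = σ)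
    (h2 : ∀ a, #(L.filter (I a)) = l)
    (h3 : ∀ m ∈ L, ∀ m' ∈ L, ∀ a b, I a m → I a m' → I b m → I b m' → a ≠ b → m = m')
    (h4 : Fintype.card Ω < p ^ 2) (h5 : p + 1 ≤ σ) (h6 : #L ≡ l [MOD p]) (h7 : 1 < #L) :
    2 ≤ l ∧ l < p ∧ #L = l + p * (l - 1) ∧ ∀ m ∈ L, ∀ m' ∈ L, ∃ a, I a m ∧ I a m' := by
  classical
  have hd : #L * σ = Fintype.card Ω * l :=
    card_mul_eq_card_mul (fun m a => I a m) (t := univ) h1 fun a _ => h2 a
  have key : ∀ m ∈ L, #((univ.filter fun a => I a m).biUnion fun a => (L.filter (I a)).erase m) =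
      σ * (l - 1) := fun m hm => by
    rw [card_biUnion, sum_congr rfl (g := fun _ => l - 1) fun a ha => by
      rw [card_erase_of_mem (mem_filter.2 ⟨hm, (mem_filter.1 ha).2⟩), h2], sum_const, h1 m hm,
      smul_eq_mul]
    intro a ha b hb hab
    refine disjoint_left.2 fun m' e e' => ne_of_mem_erase e ?_
    have e1 := mem_filter.1 (mem_of_mem_erase e)
    exact h3 m' e1.1 m hm a b e1.2 (mem_filter.1 ha).2 (mem_filter.1 (mem_of_mem_erase e')).2
      (mem_filter.1 hb).2 hab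
  have sub : ∀ m, ((univ.filter fun a => I a m).biUnion fun a => (L.filter (I a)).erase m) ⊆
      L.erase m := fun m => biUnion_subset.2 fun a _ => erase_subset_erase _ (filter_subset _ _)
  obtain ⟨m0, hm0⟩ := card_pos.1 (by omega : 0 < #L)
  have h8 := card_le_card (sub m0)
  rw [key m0 hm0, card_erase_of_mem hm0] at h8
  have hl : 1 ≤ l := by
    rcases Nat.eq_zero_or_pos l with rfl | h
    · have := Nat.mul_pos (by omega : 0 < #L) (by omega : 0 < σ); omega
    · exact h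
  obtain ⟨c, rfl⟩ : ∃ c, l = c + 1 := ⟨l - 1, by omega⟩
  rw [Nat.add_sub_cancel] at h8 key ⊢
  have h9 : (p + 1) * c ≤ σ * c := Nat.mul_le_mul_right _ h5
  rw [add_mul, one_mul] at h9
  have h10 : c + 1 + p * c ≤ #L := by omega
  obtain ⟨u, hu⟩ := (Nat.modEq_iff_dvd' (by omega)).1 h6.symm
  have h11 : #L * (p + 1) ≤ #L * σ := Nat.mul_le_mul_left _ h5
  have h12 : Fintype.card Ω * (c + 1) < p ^ 2 * (c + 1) := Nat.mul_lt_mul_of_pos_right h4 (by omega)
  have h13 : #L = c + 1 + p * u := by omega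
  have h14 : u ≤ c := by
    by_contra h
    have : p * (c + 1) * (p + 1) ≤ p * u * (p + 1) :=
      Nat.mul_le_mul_right _ (Nat.mul_le_mul_left _ (by omega))
    nlinarith
  have h15 : #L = c + 1 + p * c := by
    have : p * u ≤ p * c := Nat.mul_le_mul_left _ h14
    omega
  refine ⟨?_, ?_, h15, fun m hm m' hm' => ?_⟩
  · rcases Nat.eq_zero_or_pos c with rfl | h <;> omega
  · by_contra h
    have : p * (2 * p + 1) ≤ (c + 1) * (2 * p + 1) := Nat.mul_le_mul_right _ (by omega)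
    nlinarith
  · by_cases e : m' = m
    · obtain ⟨a, ha⟩ := card_pos.1 (by rw [h1 m hm]; omega : 0 < #(univ.filter fun a => I a m))
      exact ⟨a, (mem_filter.1 ha).2, e ▸ (mem_filter.1 ha).2⟩
    have := eq_of_subset_of_card_le (sub m) (by rw [key m hm, card_erase_of_mem hm]; omega)
    obtain ⟨a, ha, ha'⟩ := mem_biUnion.1 (this ▸ mem_erase.2 ⟨e, hm'⟩)
    exact ⟨a, (mem_filter.1 ha).2, (mem_filter.1 (mem_of_mem_erase ha')).2⟩

variable {p : ℕ} [hp : Fact p.Prime] {G : Type*} [Group G] [Finite G]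

theorem le_of_pElements {L H : Subgroup G}
    (h : ∀ s k : ℕ, s.Prime → ∀ x ∈ L, orderOf x = s ^ k → x ∈ H) : L ≤ H := by
  rw [← relIndex_eq_one]
  by_contra h1
  obtain ⟨s, hs, h2⟩ := Nat.exists_prime_and_dvd h1
  have := Fact.mk hs
  obtain ⟨Q⟩ : Nonempty (Sylow s L) := inferInstance
  refine Q.not_dvd_index (h2.trans (index_dvd_of_le fun x hx => ?_))
  obtain ⟨k, hk⟩ := IsPGroup.iff_orderOf.1 Q.isPGroup' ⟨x, hx⟩
  exact h s k hs x x.2 (by rw [← hk, orderOf_coe, ← orderOf_coe (⟨x, hx⟩ : (Q : Subgroup L))])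

open scoped Pointwise in
/-- Conjugation action on subgroups. -/
@[reducible] def cjAct : MulAction G (Subgroup G) :=
  MulAction.compHom _ (MulAut.conj : G →* MulAut G)

attribute [local instance] cjAct

open scoped Pointwise in
theorem mem_cj {g x : G} {W : Subgroup G} : x ∈ g • W ↔ g⁻¹ * x * g ∈ W := by
  change x ∈ MulAut.conj g • W ↔ _
  rw [mem_pointwise_smul_iff_inv_smul_mem, ← map_inv, MulAut.smul_def, MulAut.conj_apply, inv_inv]

theorem card_cj (g : G) (W : Subgroup G) : Nat.card (g • W : Subgroup G) = Nat.card W :=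
  Nat.card_congr ⟨fun x => ⟨g⁻¹ * x * g, mem_cj.1 x.2⟩, fun x => ⟨g * x * g⁻¹, mem_cj.2 (by
    simp [mul_assoc])⟩, fun x => Subtype.ext (by simp [mul_assoc]),
    fun x => Subtype.ext (by simp [mul_assoc])⟩

theorem cj_le {g : G} {W U : Subgroup G} : g • W ≤ g • U ↔ W ≤ U :=
  ⟨fun h x hx => by simpa [mul_assoc] using mem_cj.1 (h (x := g * x * g⁻¹) (mem_cj.2 (by
    simpa [mul_assoc] using hx))), fun h x hx => mem_cj.2 (h (mem_cj.1 hx))⟩

theorem cj_eq_of_mem {g : G} {W : Subgroup G} (h : g ∈ W) : g • W = W := by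
  ext x
  rw [mem_cj, mul_mem_cancel_right h, mul_mem_cancel_left (inv_mem h)]

theorem cj_eq_of_comm {g : G} {W : Subgroup G} (h : ∀ x ∈ W, Commute x g) : g • W = W := by
  refine (eq_of_le_of_card_ge (fun x hx => mem_cj.2 ?_) (card_cj g W).le).symm
  rwa [mul_assoc, (h x hx).eq, inv_mul_cancel_left]

section
variable (hc : ∀ Q : Sylow p G, Nat.card (Q : Subgroup G) = p)

/-- A setting attached to a Sylow subgroup. -/
noncomputable def ps (Q : Sylow p G) : PSet p G := (exists_pset_sylow Q (hc Q)).choose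

theorem ps_P (Q : Sylow p G) : (ps hc Q).P = Q := (exists_pset_sylow Q (hc Q)).choose_spec

/-- `O_{p'}(C(Q))`. -/
noncomputable def KK (Q : Sylow p G) : Subgroup G := (ps hc Q).K

variable {hc}

theorem mem_KK {Q : Sylow p G} {y : G} :
    y ∈ KK hc Q ↔ (∀ x ∈ Q, x * y = y * x) ∧ ¬ p ∣ orderOf y := by
  rw [KK, PSet.mem_K_iff, PSet.C, ps_P]; rfl

theorem KK_smul (g : G) (Q : Sylow p G) : KK hc (g • Q) = g • KK hc Q := by
  ext y
  rw [mem_cj, mem_KK, mem_KK, show g⁻¹ * y * g = MulAut.conj g⁻¹ y by simp, MulEquiv.orderOf_eq]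
  refine and_congr_left fun _ => ⟨fun h x hx => ?_, fun h x hx => ?_⟩
  · have := h (g * x * g⁻¹) (by
      change _ ∈ ((g • Q : Sylow p G) : Subgroup G)
      exact mem_cj.2 (by simp only [mul_assoc, inv_mul_cancel_left, inv_mul_cancel, mul_one]; exact hx))
    rw [MulAut.conj_apply, inv_inv]
    calc _ = g⁻¹ * (g * x * g⁻¹ * y) * g := by group
      _ = _ := by rw [this]; group
  · have := h (g⁻¹ * x * g) (mem_cj.1 (show x ∈ ((g • Q : Sylow p G) : Subgroup G) from hx))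
    rw [MulAut.conj_apply, inv_inv] at this
    calc _ = g * (g⁻¹ * x * g * (g⁻¹ * y * g)) * g⁻¹ := by group
      _ = _ := by rw [this]; group

theorem smul_eq_of_mem_KK {Q : Sylow p G} {y : G} (h : y ∈ KK hc Q) : y • Q = Q :=
  Sylow.smul_eq_iff_mem_normalizer.2 (centralizer_le_normalizer _ (mem_KK.1 h).1)

include hc in
theorem eq_of_smul_eq {Q R : Sylow p G} {x : G} (hx : x ∈ Q) (h1 : x ≠ 1) (h : x • R = R) :
    Q = R := by
  have h2 : zpowers x = Q := eq_of_le_of_card_ge (zpowers_le.2 hx) (by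
    rw [hc, Nat.card_zpowers]
    exact Nat.le_of_dvd (orderOf_pos x) (((Nat.dvd_prime hp.out).1 (hc Q ▸ orderOf_dvd_natCard
      (⟨x, hx⟩ : (Q : Subgroup G)))).resolve_left (by simpa using h1) ▸ by simp))
  refine Sylow.ext (eq_of_le_of_card_ge ((Fgs3.sylow_smul_eq_iff_le Q.isPGroup' R).1 ?_)
    (by rw [hc, hc]))
  rw [← h2]
  exact fun y hy => (zpowers_le (H := MulAction.stabilizer G R)).2 h hy

theorem ti_of_star [IsSimpleGroup G] (hn : Nat.card (Sylow p G) < p ^ 2)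
    (hs : ∀ (Q R : Sylow p G), ∀ y ∈ KK hc Q, y • R = R → y ∈ KK hc R) {Q₀ R₀ : Sylow p G}
    (h0 : Q₀ ≠ R₀) : KK hc Q₀ ⊓ KK hc R₀ = ⊥ := by
  classical
  by_contra hne
  have := Fintype.ofFinite G
  have := Fintype.ofFinite (Sylow p G)
  obtain ⟨⟨Q, R⟩, hQR, hmax⟩ := exists_max_image
    (univ.filter fun x : Sylow p G × Sylow p G => x.1 ≠ x.2)
    (fun x => Nat.card (KK hc x.1 ⊓ KK hc x.2 : Subgroup G)) ⟨(Q₀, R₀), by simpa using h0⟩
  simp only [mem_filter, mem_univ, true_and, Prod.forall] at hQR hmax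
  obtain ⟨W, hW⟩ : ∃ W, W = KK hc Q ⊓ KK hc R := ⟨_, rfl⟩
  rw [← hW] at hmax
  have hW1 : W ≠ ⊥ := fun e => hne (card_le_one_iff_eq_bot _ |>.1 (by
    simpa [e] using hmax Q₀ R₀ h0))
  obtain ⟨L, hL⟩ : ∃ L : Finset (Subgroup G), ∀ m, m ∈ L ↔ ∃ g : G, g • W = m :=
    ⟨univ.image fun g : G => g • W, by simp⟩
  have hLs : ∀ g : G, ∀ m ∈ L, g • m ∈ L := fun g m hm => by
    obtain ⟨x, rfl⟩ := (hL m).1 hm
    exact (hL _).2 ⟨g * x, mul_smul _ _ _⟩
  have hWL : W ∈ L := (hL _).2 ⟨1, one_smul _ _⟩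
  have hI : ∀ (g : G) (a : Sylow p G) (m : Subgroup G),
      g • m ≤ KK hc (g • a) ↔ m ≤ KK hc a := fun g a m => by rw [KK_smul, cj_le]
  have heq : ∀ m ∈ L, ∀ a b, m ≤ KK hc a → m ≤ KK hc b → a ≠ b → m = KK hc a ⊓ KK hc b :=
    fun m hm a b ha hb hab => eq_of_le_of_card_ge (le_inf ha hb) (by
      obtain ⟨x, rfl⟩ := (hL m).1 hm
      rw [card_cj]; exact hmax a b hab)
  have hfix : ∀ (a : Sylow p G), ∀ x ∈ a, ∀ m, m ≤ KK hc a → x • m = m := fun a x hx m hm =>
    cj_eq_of_comm fun y hy => ((mem_KK.1 (hm hy)).1 x hx).symm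
  have hmod : ∀ m, ∀ a, m ≤ KK hc a → #(univ.filter fun b => m ≤ KK hc b) ≡ 1 [MOD p] :=
    fun m a ha => by
      rw [← Set.ncard_coe_finset]
      refine Fgs3.ncard_modEq_one_of_inv a _ (by simpa using ha) fun x hx b hb => ?_
      simp only [coe_filter, mem_univ, true_and, Set.mem_setOf_eq] at hb ⊢
      rw [← hfix a x hx m ha]
      exact (hI x b m).2 hb
  have hσ : ∀ m ∈ L, #(univ.filter fun b => m ≤ KK hc b) = #(univ.filter fun b => W ≤ KK hc b) :=
    fun m hm => by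
      obtain ⟨x, rfl⟩ := (hL m).1 hm
      refine (card_bij (fun b _ => x • b) (fun b hb => ?_) (fun _ _ _ _ e => MulAction.injective x e)
        fun b hb => ⟨x⁻¹ • b, ?_, smul_inv_smul _ _⟩).symm
      · exact mem_filter.2 ⟨mem_univ _, (hI _ _ _).2 (mem_filter.1 hb).2⟩
      · exact mem_filter.2 ⟨mem_univ _, (hI x _ _).1 (by
          rw [smul_inv_smul]; exact (mem_filter.1 hb).2)⟩
  have hl : ∀ a, #(L.filter fun m => m ≤ KK hc a) = #(L.filter fun m => m ≤ KK hc Q) := fun a => by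
    obtain ⟨x, rfl⟩ := MulAction.exists_smul_eq G Q a
    refine (card_bij (fun b _ => x • b) (fun b hb => ?_) (fun _ _ _ _ e => MulAction.injective x e)
      fun b hb => ⟨x⁻¹ • b, ?_, smul_inv_smul _ _⟩).symm
    · rw [mem_filter] at hb ⊢
      exact ⟨hLs _ _ hb.1, (hI _ _ _).2 hb.2⟩
    · rw [mem_filter] at hb ⊢
      exact ⟨hLs _ _ hb.1, (hI x _ _).1 (by rw [smul_inv_smul]; exact hb.2)⟩
  have hWQ : W ≤ KK hc Q := hW ▸ inf_le_left
  have hWR : W ≤ KK hc R := hW ▸ inf_le_right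
  have hon : ∀ (a : Sylow p G), ∀ x ∈ a, x ≠ 1 → ∀ m ∈ L, x • m = m → m ≤ KK hc a :=
    fun a x hx hx1 m hm e => by
      by_contra h
      have h1 := Fgs3.ncard_modEq_fixedBy (p := p) (g := x) (k := 1) (by
        rw [pow_one, ← hc a]
        exact congrArg Subtype.val (pow_card_eq_one' (x := (⟨x, hx⟩ : (a : Subgroup G)))))
        (↑(univ.filter fun b => m ≤ KK hc b) : Set (Sylow p G)) (Finset.finite_toSet _)
        fun b hb => by
          simp only [coe_filter, mem_univ, true_and, Set.mem_setOf_eq] at hb ⊢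
          rw [← e]
          exact (hI x b m).2 hb
      rw [Set.ncard_coe_finset, hσ m hm, Set.eq_empty_of_forall_notMem (s := {b | b ∈ (↑(univ.filter
        fun b => m ≤ KK hc b) : Set (Sylow p G)) ∧ x • b = b}) fun b hb => h (by
          rw [eq_of_smul_eq (hc := hc) hx hx1 hb.2]; simpa using hb.1), Set.ncard_empty] at h1
      exact hp.out.one_lt.ne' (Nat.dvd_one.1 (Nat.modEq_zero_iff_dvd.1
        ((hmod W Q hWQ).symm.trans h1)))
  have hcore : ∀ f, (∀ m ∈ L, f ∈ m) → f = 1 := fun f hf => by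
    rcases (normalCore_normal W).eq_bot_or_eq_top with e | e
    · exact mem_bot.1 (e ▸ fun g => by
        simpa using mem_cj.1 (hf _ ((hL _).2 ⟨g⁻¹, rfl⟩)))
    · have S := ps hc Q
      exact absurd S.ord.symm.dvd (mem_KK.1 (hWQ (normalCore_le W (e ▸ mem_top S.z)))).2
  have hz := (ps hc Q).z_ne_one
  have hzQ : ∀ a i, (ps hc a).zp i ∈ a := fun a i => by
    have := (ps hc a).zp_mem i
    rwa [ps_P] at this
  obtain ⟨c1, c2, c3, c4⟩ := comb (fun a m => m ≤ KK hc a) L hσ hl (p := p)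
    (fun m hm m' hm' a b e1 e2 e3 e4 e => (heq m hm a b e1 e3 e).trans (heq m' hm' a b e2 e4 e).symm)
    (by rwa [← Nat.card_eq_fintype_card]) (by
      have h1 := hmod W Q hWQ
      have h2 : 1 < #(univ.filter fun b => W ≤ KK hc b) :=
        one_lt_card.2 ⟨Q, by simpa using hWQ, R, by simpa using hWR, hQR⟩
      have := Nat.le_of_dvd (by omega) ((Nat.modEq_iff_dvd' h2.le).1 h1.symm)
      omega) (by
      have h1 := Fgs3.ncard_modEq_fixedBy (p := p) (g := (ps hc Q).z) (k := 1)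
        (by rw [pow_one, PSet.z_pow]) (↑L : Set (Subgroup G)) (Finset.finite_toSet _) (hLs _)
      have hz' : (ps hc Q).z ∈ Q := by simpa using hzQ Q 1
      rw [Set.ncard_coe_finset] at h1
      convert h1 using 1
      rw [← Set.ncard_coe_finset]
      congr 1
      ext m
      simp only [coe_filter, Set.mem_setOf_eq, mem_coe]
      exact and_congr_right fun hm => ⟨hfix Q _ hz' m, hon Q _ hz' hz m hm⟩) (by
      by_contra h
      refine hW1 (eq_bot_iff.2 fun f hf => mem_bot.2 (hcore f fun m hm => ?_))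
      rwa [card_le_one.1 (not_lt.1 h) m hm W hWL])
  generalize hlam : #(L.filter fun m => m ≤ KK hc Q) = l at hl c1 c2 c3
  have hA : ∀ a, ∀ f ∈ KK hc a, ∀ q ∈ L, ¬ q ≤ KK hc a → f • q = q →
      ∀ m ∈ L, m ≤ KK hc a → f ∈ m := fun a f hf q hq hqa hfq m hm hma => by
    have hne : ∀ i j, (ps hc a).zp i • q = (ps hc a).zp j • q → i = j := fun i j e => by
      by_contra hij
      refine hqa (hon a _ (hzQ a (-j + i)) (fun e' => hij ?_) q hq ?_)
      · rw [PSet.zp_eq_one_iff, neg_add_eq_zero] at e'; exact e'.symm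
      · rw [PSet.zp_add, mul_smul, e, PSet.zp_neg, inv_smul_smul]
    choose γ hγ using fun i => c4 q hq _ (hLs ((ps hc a).zp i) q hq)
    have hγf : ∀ i ≠ 0, f ∈ KK hc (γ i) := fun i hi => hs a _ f hf (by
      by_contra e
      have e1 : f • (ps hc a).zp i • q = (ps hc a).zp i • q := by
        rw [← mul_smul, ← (mem_KK.1 hf).1 _ (hzQ a i), mul_smul, hfq]
      refine hi (hne i 0 ?_)
      rw [PSet.zp_zero, one_smul]
      exact (heq _ (hLs _ q hq) _ _ (e1 ▸ (hI f _ _).2 (hγ i).2) (hγ i).2 e).trans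
        (heq q hq _ _ (hfq ▸ (hI f _ _).2 (hγ i).1) (hγ i).1 e).symm)
    obtain ⟨i, hi, hi'⟩ : ∃ i ≠ 0, γ i ≠ γ 1 := by
      by_contra! h
      have := card_le_card_of_injOn (s := (univ : Finset (ZMod p))) (fun i => (ps hc a).zp i • q)
        (t := L.filter fun m => m ≤ KK hc (γ 1)) (fun i _ => mem_filter.2 ⟨hLs _ q hq, by
          by_cases hi : i = 0
          · simpa [hi] using (hγ 1).1
          · exact h i hi ▸ (hγ i).2⟩) fun i _ j _ => hne i j
      rw [hl, card_univ, ZMod.card] at this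
      omega
    have hfq' : f ∈ q := heq q hq _ _ (hγ i).1 (hγ 1).1 hi' ▸ ⟨hγf i hi, hγf 1 one_ne_zero⟩
    obtain ⟨b, hb, hb'⟩ := c4 q hq m hm
    exact heq m hm a b hma hb' (fun e => hqa (e ▸ hb)) ▸ ⟨hf, hb hfq'⟩
  have hB : ∀ a, ∀ f ∈ KK hc a, ∀ q ∈ L, ¬ q ≤ KK hc a → f • q = q → f = 1 :=
    fun a f hf q hq hqa hfq => hcore f fun m hm => by
      have h1 := hA a f hf q hq hqa hfq
      obtain ⟨m1, e1, m2, e2, e⟩ := one_lt_card.1 (show 1 < #(L.filter fun m => m ≤ KK hc a) by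
        rw [hl]; omega)
      rw [mem_filter] at e1 e2
      obtain ⟨b, hb, hb'⟩ := c4 m1 e1.1 m hm
      by_cases hab : a = b
      · exact h1 m hm (hab ▸ hb')
      · exact hA b f (hb (h1 m1 e1.1 e1.2)) m2 e2.1 (fun e' => e ((heq m1 e1.1 a b e1.2 hb hab).trans
          (heq m2 e2.1 a b e2.2 e' hab).symm)) (cj_eq_of_mem (h1 m2 e2.1 e2.2)) m hm hb'
  have h1 : l ≤ Nat.card (KK hc Q) := by
    have h2 : ∀ m ∈ L, ∃ w ∈ m, w ≠ 1 := fun m hm => by
      obtain ⟨x, rfl⟩ := (hL m).1 hm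
      exact (nontrivial_iff_exists_ne_one _).1 (Finite.one_lt_card_iff_nontrivial.1
        (by rw [card_cj]; exact (one_lt_card_iff_ne_bot _).2 hW1))
    choose! w hw hw1 using h2
    rw [← hlam, ← PF.card_els]
    refine card_le_card_of_injOn w (fun m hm => PF.mem_els.2
      ((mem_filter.1 hm).2 (hw m (mem_filter.1 hm).1))) fun m hm m' hm' e => ?_
    rw [mem_coe, mem_filter] at hm hm'
    by_contra hmm
    obtain ⟨b, hb, hb'⟩ := exists_mem_ne (show 1 < #(univ.filter fun b => m ≤ KK hc b) by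
      rw [hσ m hm.1]
      exact one_lt_card.2 ⟨Q, by simpa using hWQ, R, by simpa using hWR, hQR⟩) Q
    rw [mem_filter] at hb
    exact hw1 m hm.1 (hB b _ (hb.2 (hw m hm.1)) m' hm'.1 (fun e' => hmm
      ((heq m hm.1 b Q hb.2 hm.2 hb').trans (heq m' hm'.1 b Q e' hm'.2 hb').symm))
      (cj_eq_of_mem (e ▸ hw m' hm'.1)))
  have h2 : #(L.filter fun m => ¬ m ≤ KK hc Q) = p * (l - 1) := by
    have := card_filter_add_card_filter_not (s := L) fun m => m ≤ KK hc Q
    omega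
  obtain ⟨q, hq⟩ := card_pos.1 (h2 ▸ Nat.mul_pos hp.out.pos (by omega))
  rw [mem_filter] at hq
  have h3 : Nat.card (ps hc Q).C ≤ p * (l - 1) := by
    have hCQ : ∀ c ∈ (ps hc Q).C, c • Q = Q := fun c hc' =>
      Sylow.smul_eq_iff_mem_normalizer.2 (by
        have := (ps hc Q).C_le_N hc'
        rwa [PSet.N, ps_P] at this)
    rw [← h2, ← PF.card_els]
    refine card_le_card_of_injOn (fun c => c • q) (fun c hc' => mem_filter.2 ⟨hLs _ _ hq.1,
      fun e => hq.2 ((hI c Q q).1 (by rwa [hCQ c (PF.mem_els.1 hc')]))⟩) fun c h1 d h2 e => ?_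
    have h3 := mul_mem (inv_mem (PF.mem_els.1 h2)) (PF.mem_els.1 h1)
    have h4 : d⁻¹ * c ∈ MulAction.stabilizer G q := by
      rw [MulAction.mem_stabilizer_iff, mul_smul, show c • q = d • q from e, inv_smul_smul]
    obtain ⟨i, y, hy, e'⟩ := (ps hc Q).exists_mul_of_mem_C h3
    have h5 := pPart_mem (p := p) h4
    rw [e', PSet.pPart_zp_mul _ i hy] at h5
    have h6 : (ps hc Q).zp i = 1 := by_contra fun h => hq.2 (hon Q _ (hzQ Q i) h q hq.1 h5)
    rw [h6, one_mul] at e'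
    rw [eq_comm, ← inv_mul_eq_one, e']
    exact hB Q y hy q hq.1 hq.2 (e' ▸ h4)
  rw [PSet.card_C] at h3
  have := Nat.le_of_mul_le_mul_left h3 hp.out.pos
  change l ≤ Nat.card (ps hc Q).K at h1
  omega

end

end CF.NpSq
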