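import Mathlib
import Cfsg.Agent.NpSq.B
import Cfsg.Agent.NpSq.C
import Cfsg.Agent.Transfer.Frobenius
import Cfsg.Agent.Fgs1.PGroup

/-!
# Fewer than `p²` Sylow subgroups, V: fusion of elements of `O_{p'}(C(P))`
-/

set_option autoImplicit false
set_option linter.unusedSectionVars false

namespace CF.NpSq

open Subgroup CF.BlockB Cfsg CF.PF CF.Small CF.Small.PSet

variable {p : ℕ} [hp : Fact p.Prime] {G : Type*} [Group G] [Finite G] {S : PSet p G}
  {χ : G → ℂ} {ε : ℤ} {α : ℕ}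

theorem Cn.transfer (h : Cn S χ ε α) (S' : PSet p G) : Cn S' χ ε α := by
  refine ⟨h.irr, h.sg, fun i hi y hy => ?_, h.deg⟩
  obtain ⟨g, j, hj, w, hw, e⟩ := S.exists_conj_of_dvd (S'.dvd_orderOf_zp_mul hi hy)
  rw [← h.val j hj w hw, ← e, Char.char_isClassFunction (isCh_top.1 h.ch)]

theorem dvd_fi {s k : ℕ} (hs : s.Prime) {q : G} (ho : orderOf q = s ^ k) (h1 : q ∈ S.N)
    (h2 : q ∉ S.C) : s ∣ S.fi := by
  by_contra h
  have : (S.C.subgroupOf S.N).Normal := PF.normal_subgroupOf_of_le_normalizer S.N_le_normalizer_C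
  have h3 : q ^ S.fi ∈ S.C := pow_index_mem (S.C.subgroupOf S.N) ⟨q, h1⟩
  obtain ⟨c, hc⟩ := exists_pow_eq_self_of_coprime (x := q) (n := S.fi)
    (ho ▸ ((hs.coprime_iff_not_dvd.2 h).symm.pow_right k))
  exact h2 (hc ▸ pow_mem h3 c)

variable (S) in
/-- Elements of prime power order of `K` fuse into the normalizer only inside the centralizer. -/
def St : Prop := ∀ s k : ℕ, s.Prime → ∀ w ∈ S.K, orderOf w = s ^ k → ∀ g,
  g * w * g⁻¹ ∈ S.N → g * w * g⁻¹ ∈ S.C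

variable (S) in
/-- Nonidentity elements of `K` normalize a single Sylow subgroup. -/
def TI : Prop := ∀ y ∈ S.K, y ≠ 1 → ∀ g, g * y * g⁻¹ ∈ S.N → g ∈ S.N

theorem exists_sylow (S : PSet p G) : (∀ Q : Sylow p G, Nat.card (Q : Subgroup G) = p) ∧
    ∃ Q : Sylow p G, S.P = Q := by
  obtain ⟨m, hm⟩ := S.p_dvd
  have h1 : ∀ Q : Sylow p G, Nat.card (Q : Subgroup G) = p := fun Q =>
    (card_sylow_eq Q (a := 1) (m := m) (by rw [hm, pow_one]) fun h => S.nsq (by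
      rw [hm, pow_two]; exact Nat.mul_dvd_mul_left p h)).trans (pow_one p)
  obtain ⟨P, hP⟩ := (IsPGroup.of_card (G := S.P) (n := 1)
    (by rw [S.card_P, pow_one])).exists_le_sylow
  exact ⟨h1, P, eq_of_le_of_card_ge hP (by rw [S.card_P, h1])⟩

theorem smul_eq_iff {Q : Sylow p G} (hQ : S.P = Q) {y g : G} :
    y • g⁻¹ • Q = g⁻¹ • Q ↔ g * y * g⁻¹ ∈ S.N := by
  rw [N, hQ]
  refine Iff.trans ?_ Sylow.smul_eq_iff_mem_normalizer
  rw [mul_smul, mul_smul, smul_eq_iff_eq_inv_smul g]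

theorem ti_of_st [IsSimpleGroup G] (hn : Nat.card (Sylow p G) < p ^ 2) (h : ∀ S : PSet p G, St S)
    (S : PSet p G) : TI S := by
  obtain ⟨hc, Q, hQ⟩ := exists_sylow S
  have hs : ∀ (Q R : Sylow p G), ∀ y ∈ KK hc Q, y • R = R → y ∈ KK hc R := fun Q R y hy e => by
    obtain ⟨g, rfl⟩ := MulAction.exists_smul_eq G Q R
    obtain ⟨g, rfl⟩ := inv_surjective g
    refine le_of_pElements (L := zpowers y) (fun s k hs w hw ho => ?_) (mem_zpowers y)
    have h1 : w ∈ (ps hc Q).K := zpowers_le.2 hy hw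
    have h2 := h (ps hc Q) s k hs w h1 ho g ((smul_eq_iff (ps_P hc Q)).1
      ((zpowers_le (H := MulAction.stabilizer G (g⁻¹ • Q))).2 e hw))
    rw [KK_smul, mem_cj, inv_inv]
    refine (mem_K_iff _).2 ⟨h2, ?_⟩
    rw [show g * w * g⁻¹ = MulAut.conj g w from rfl, MulEquiv.orderOf_eq]
    exact K_reg _ h1
  intro y hy h1 g hg
  have h2 : y ∈ KK hc Q := by
    rw [mem_K_iff, C, hQ] at hy
    exact mem_KK.2 hy
  have h3 : Q = g⁻¹ • Q := by
    by_contra h3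
    exact h1 (mem_bot.1 (ti_of_star hn hs h3 ▸ ⟨h2, hs _ _ y h2 ((smul_eq_iff hQ).2 hg)⟩))
  rw [N, hQ]
  exact Sylow.smul_eq_iff_mem_normalizer.1 (by rw [smul_eq_iff_eq_inv_smul]; exact h3)

theorem TI.le_N (h : TI S) {s : ℕ} [Fact s.Prime] {V : Subgroup G} (hV : IsPGroup s V) {z : G}
    (hz : z ∈ V) (hz' : z ∈ S.K) (h1 : z ≠ 1) : V ≤ S.N := by
  by_contra h2
  obtain ⟨x, ⟨hx, hx'⟩, h3⟩ := SetLike.exists_of_lt (Transfer.lt_inf_normalizer_of_lt hV
    (inf_lt_left.2 h2))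
  exact h3 ⟨hx, h z hz' h1 x ((mem_normalizer_iff.1 hx' z).1 ⟨hz, S.K_le_N hz'⟩).2⟩

theorem TI.not_dvd (h : TI S) (hG : commutator G = ⊤) {s : ℕ} (hs : s.Prime)
    (h1 : s ∣ Nat.card S.K) : ¬ s ∣ S.fi := by
  have := Fact.mk hs
  obtain ⟨y, hy⟩ := exists_prime_orderOf_dvd_card' s h1
  rw [← orderOf_coe] at hy
  obtain ⟨U, hU⟩ := (IsPGroup.of_card (G := zpowers (y : G)) (n := 1)
    (by rw [Nat.card_zpowers, hy, pow_one])).exists_le_sylow
  have h2 := h.le_N U.isPGroup' (hU (mem_zpowers _)) y.2 fun e => hs.one_lt.ne' (by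
    rw [← hy, e, orderOf_one])
  obtain ⟨z, hz, hz1, hz2⟩ := Fgs1.exists_fixed_of_isPGroup (Z := U ⊓ S.K) U.isPGroup'
    ((le_inf le_normalizer (h2.trans S.N_le_normalizer_K)).trans inf_normalizer_le_normalizer_inf)
    U.isPGroup'.to_inf_left fun e => hs.one_lt.ne' (by
      rw [← hy, mem_bot.1 (e ▸ ⟨hU (mem_zpowers _), y.2⟩ : (y : G) ∈ (⊥ : Subgroup G)), orderOf_one])
  have h3 := Transfer.sylow_inf_commutator_le U (K := S.C) fun x hx g hg => by
    obtain ⟨V, hV, hV'⟩ := Transfer.exists_isSylowIn_ge (p := s) (Q := zpowers z)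
      (H := centralizer {x}) (U.isPGroup'.to_le (zpowers_le.2 hz.1))
      (zpowers_le.2 (mem_centralizer_singleton_iff.2 (hz2 x hx).symm))
    obtain ⟨c, hc, hc'⟩ := hV'.exists_cj_le (Q := Transfer.cj g⁻¹ (zpowers z))
      (Transfer.isPGroup_cj (U.isPGroup'.to_le (zpowers_le.2 hz.1)) _) (fun w hw => by
        have h4 := hz2 _ hg
        have h5 := (zpowers_le (H := centralizer {g * x * g⁻¹})).2
          (mem_centralizer_singleton_iff.2 h4.symm) (Transfer.mem_cj_inv.1 hw)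
        rw [mem_centralizer_singleton_iff] at h5 ⊢
        calc _ = g⁻¹ * (g * w * g⁻¹ * (g * x * g⁻¹)) * g := by group
          _ = _ := by rw [h5]; group)
    have h4 : c * g⁻¹ ∈ S.N := h z hz.2 hz1 _ (h.le_N hV'.isPGroup (hV (mem_zpowers z)) hz.2 hz1 (by
      have := hc' (Transfer.conj_mem_cj (Transfer.conj_mem_cj (mem_zpowers z)))
      simpa [mul_assoc] using this))
    have h5 : g * x * g⁻¹ = (c * g⁻¹)⁻¹ * x * (c * g⁻¹) := by
      rw [mem_centralizer_singleton_iff] at hc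
      calc _ = g * c⁻¹ * (c * x) * g⁻¹ := by group
        _ = _ := by rw [hc]; group
    have h6 := h2 hx
    rw [h5, ← S.act_eq_iff h6 (mul_mem (mul_mem (inv_mem h4) h6) h4),
      S.act_mul (mul_mem (inv_mem h4) h6) h4, S.act_mul (inv_mem h4) h6, S.act_inv h4]
    field_simp [S.act_ne_zero h4]
  rw [hG, inf_top_eq] at h3
  exact fun h4 => U.not_dvd_index ((h4.trans (S.index_C ▸ dvd_mul_right _ _)).trans
    (index_dvd_of_le h3))

end CF.NpSq
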