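import Mathlib
import Cfsg.Agent.NpSq.A
import Cfsg.Agent.NpSq.A2
import Cfsg.Agent.NpSq.D
import Cfsg.Agent.Small.BT2

/-!
# Fewer than `p²` Sylow subgroups, VI: the Sylow subgroup is self-centralizing
-/

set_option autoImplicit false
set_option linter.unusedSectionVars false

namespace CF.NpSq

open Subgroup CF.BlockB Cfsg CF.PF CF.Small CF.Small.PSet Finset

variable {p : ℕ} [hp : Fact p.Prime] {G : Type*} [Group G] [Finite G] {S : PSet p G}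
  {B : S.Blk (triv S.K)} {χ : G → ℂ} {u k a b : ℕ}

theorem cn_X (h : χ ∈ B.X) {α : ℕ} (hd : (charDegree χ : ℤ) = α * p + B.ε χ) :
    Cn S χ (B.ε χ) α :=
  ⟨B.X_irr χ h, B.ε_sign χ h, fun _ hi _ hy => B.pX_val h hi hy, hd⟩

theorem cn_ex (h : #B.Y = 1) {α : ℕ} (hd : (B.x : ℤ) = α * p + -B.δ) :
    Cn S (B.ex 1) (-B.δ) α := by
  refine ⟨B.ex_irr 1 one_ne_zero, by rcases B.δ_sign with e | e <;> simp [e],
    fun i hi y hy => ?_, hd⟩
  have h1 := B.sum_Y_val (triv_mem_irr _) hi hy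
  obtain ⟨ψ, e⟩ := card_eq_one.1 h
  have h2 := B.ex_mem_Y one_ne_zero
  rw [e, mem_singleton] at h2
  rw [e, sum_singleton, ← h2, os_triv, triv_of_mem hy, mul_one] at h1
  rw [h1, Int.cast_neg]

variable (B u k a b) in
/-- The principal block in the case of an exceptional form of the number of Sylow subgroups. -/
structure Su : Prop where
  perf : commutator G = ⊤
  mem : triv ⊤ ∈ B.X
  fm : Fm p (u * (k + 1) + 1) u k
  ha : a = u * k + 1
  hb : b = (u + 1) * (k + 1) + 1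
  idx : S.N.index = a * b

variable (B) in
open Classical in
/-- Characters of degree `n`. -/
noncomputable def X1 : Finset (G → ℂ) := B.Xp.filter fun χ => charDegree χ = S.N.index

variable (B) in
open Classical in
/-- Characters of degree `u p + 1`. -/
noncomputable def X2 : Finset (G → ℂ) := B.Xp.filter fun χ => ¬ charDegree χ = S.N.index

variable (B) in
open Classical in
/-- Characters of degree `p - 1`. -/
noncomputable def Z1 : Finset (G → ℂ) := B.Xm.filter fun χ => charDegree χ = p - 1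

variable (B) in
open Classical in
/-- Characters of degree `(k + 1) p - 1`. -/
noncomputable def Z2 : Finset (G → ℂ) := B.Xm.filter fun χ => ¬ charDegree χ = p - 1

theorem sum_Xp {A : Type*} [AddCommMonoid A] (F : (G → ℂ) → A) :
    ∑ χ ∈ B.Xp, F χ = ∑ χ ∈ X1 B, F χ + ∑ χ ∈ X2 B, F χ :=
  (sum_filter_add_sum_filter_not _ _ _).symm

theorem sum_Xm {A : Type*} [AddCommMonoid A] (F : (G → ℂ) → A) :
    ∑ χ ∈ B.Xm, F χ = ∑ χ ∈ Z1 B, F χ + ∑ χ ∈ Z2 B, F χ :=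
  (sum_filter_add_sum_filter_not _ _ _).symm

theorem X1_mem (h : χ ∈ X1 B) : χ ∈ B.X ∧ B.ε χ = 1 ∧ charDegree χ = S.N.index := by
  classical
  have h1 := mem_filter.1 h
  exact ⟨(B.mem_Xp.1 h1.1).1, (B.mem_Xp.1 h1.1).2.2, h1.2⟩

theorem Z1_mem (h : χ ∈ Z1 B) : χ ∈ B.X ∧ B.ε χ = -1 ∧ charDegree χ = p - 1 := by
  classical
  have h1 := mem_filter.1 h
  exact ⟨(B.mem_Xm.1 h1.1).1, (B.mem_Xm.1 h1.1).2.2, h1.2⟩

namespace Su

variable (h : Su B u k a b)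
include h

theorem p_eq : p = (u + 1) * k + 1 := h.fm.hp

theorem n_eq : S.N.index = (u * (k + 1) + 1) * p + 1 := by rw [h.fm.n_eq, h.idx, h.ha, h.hb]

theorem A_eq : (u + 1) * a = u * p + 1 := by rw [h.fm.A_eq, h.ha]

theorem B_eq : k * b + 1 = (k + 1) * p := by rw [← h.fm.B_eq, h.hb]

theorem A_le : (u + 1) * a ≤ S.N.index := by
  rw [h.A_eq, h.n_eq]
  exact Nat.succ_le_succ (Nat.mul_le_mul_right _ (by nlinarith))

theorem dv_pos {d : ℕ} (hd : d ∣ (p - 1) * S.N.index) (hm : (d : ℤ) ≡ 1 [ZMOD p]) :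
    d = 1 ∨ d = S.N.index ∨ d = (u + 1) * a := by
  rw [h.n_eq] at hd ⊢
  rw [h.A_eq]
  exact h.fm.dv_pos hd hm

theorem dv_neg {d : ℕ} (hd : d ∣ (p - 1) * S.N.index) (hm : (d : ℤ) ≡ -1 [ZMOD p]) :
    d = p - 1 ∨ d = (p - 1) * S.N.index ∨ d = k * b := by
  rw [h.n_eq] at hd ⊢
  rw [h.hb]
  exact h.fm.dv_neg hd hm

theorem degp (hχ : χ ∈ B.Xp) : charDegree χ = S.N.index ∨ charDegree χ = (u + 1) * a := by
  obtain ⟨h1, h2, h3⟩ := B.mem_Xp.1 hχ
  exact (h.dv_pos (B.pX_dvd' h1) (h3 ▸ B.pX_modEq h1)).resolve_left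
    (mt (eq_triv_of_deg h.perf (B.X_irr χ h1)) h2)

theorem X2_mem (hχ : χ ∈ X2 B) : χ ∈ B.X ∧ B.ε χ = 1 ∧ charDegree χ = (u + 1) * a := by
  classical
  have h1 := mem_filter.1 hχ
  exact ⟨(B.mem_Xp.1 h1.1).1, (B.mem_Xp.1 h1.1).2.2, (h.degp h1.1).resolve_left h1.2⟩

theorem deg_eq : (1 + ∑ χ ∈ B.Xp, charDegree χ : ℤ) = ∑ χ ∈ B.Xm, charDegree χ + B.δ * B.x := by
  have := (B.sum_ε h.mem fun χ => (charDegree χ : ℤ)).symm.trans (B.deg_eq (triv_mem_irr _))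
  rw [deg_triv] at this
  push_cast at this ⊢
  linarith

theorem sum_le : ∑ χ ∈ B.Xp, charDegree χ ≤ #B.Xp * S.N.index :=
  sum_le_card_nsmul _ _ _ fun _ hχ => by
    rcases h.degp hχ with e | e <;> rw [e]
    exact h.A_le

theorem tx_dvd : #B.Y * B.x ∣ (p - 1) * S.N.index := by
  rw [← B.pcard_Y, mul_assoc]; exact Nat.mul_dvd_mul_left _ B.px_dvd

theorem degY : (B.δ = 1 ∧ B.x = S.fi) ∨ (B.δ = 1 ∧ #B.Y * B.x = k * b) ∨
    (B.δ = -1 ∧ (#B.Y * B.x = S.N.index ∨ #B.Y * B.x = (u + 1) * a)) := by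
  have h3 := B.ptx_modEq
  rcases B.δ_sign with e | e <;> rw [e] at h3
  · rcases h.dv_neg h.tx_dvd h3 with e' | e' | e'
    · rw [← B.pcard_Y, mul_right_inj' B.card_Y_pos.ne'] at e'
      exact Or.inl ⟨e, e'⟩
    · rw [← B.pcard_Y, mul_assoc, mul_right_inj' B.card_Y_pos.ne'] at e'
      have h1 := h.deg_eq
      have h2 := h.sum_le
      have h4 := B.card_X_eq h.mem
      have h5 := h.n_eq
      have h6 : (#B.Xp + 1) * S.N.index ≤ S.fi * S.N.index := Nat.mul_le_mul_right _ (by omega)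
      have h7 : 0 < (u * (k + 1) + 1) * p := Nat.mul_pos (by omega) hp.out.pos
      rw [e, e', one_mul] at h1
      rw [add_mul] at h6
      omega
    · exact Or.inr (Or.inl ⟨e, e'⟩)
  · exact Or.inr (Or.inr ⟨e, (h.dv_pos h.tx_dvd h3).resolve_left fun e' =>
      B.x_ne_one h.perf h.mem (Nat.eq_one_of_mul_eq_one_left e')⟩)

theorem Z2_mem (hχ : χ ∈ Z2 B) : χ ∈ B.X ∧ B.ε χ = -1 ∧ charDegree χ = k * b := by
  classical
  have h1 := mem_filter.1 hχ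
  obtain ⟨h2, -, h3⟩ := B.mem_Xm.1 h1.1
  refine ⟨h2, h3, ((h.dv_neg (B.pX_dvd' h2) (h3 ▸ B.pX_modEq h2)).resolve_left h1.2).resolve_left
    fun e => ?_⟩
  have h4 := B.pX_dvd h2
  rw [e] at h4
  have h5 := Nat.le_of_dvd fi_pos (Nat.dvd_of_mul_dvd_mul_right
    (Nat.pos_of_ne_zero index_ne_zero_of_finite) h4)
  have h6 := h.deg_eq
  have h7 := h.sum_le
  have h8 := B.card_X_eq h.mem
  have h9 := single_le_sum (f := fun χ => charDegree χ) (fun _ _ => Nat.zero_le _) h1.1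
  have h10 := card_pos.2 ⟨χ, h1.1⟩
  have h11 := B.fi_lt
  have h12 : (#B.Xp + 2) * S.N.index ≤ (p - 1) * S.N.index := Nat.mul_le_mul_right _ (by omega)
  have h13 := h.n_eq
  have h14 : 0 < (u * (k + 1) + 1) * p := Nat.mul_pos (by omega) hp.out.pos
  have h15 : 1 * B.x ≤ #B.Y * B.x := Nat.mul_le_mul_right _ B.card_Y_pos
  have h16 := h.A_le
  rw [add_mul] at h12
  simp only [e] at h9
  rcases h.degY with ⟨e1, -⟩ | ⟨e1, -⟩ | ⟨e1, e2⟩ <;> rw [e1] at h6 <;> omega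

theorem dt (hx : ¬ (B.δ = 1 ∧ B.x = S.fi)) :
    Dt u k a b S.fi #B.Y B.x #(X1 B) #(X2 B) #(Z1 B) #(Z2 B) B.δ := by
  have hd : ∀ χ ∈ B.X, charDegree χ ∣ S.fi * (a * b) := fun χ hχ => h.idx ▸ B.pX_dvd hχ
  refine ⟨h.fm.u1, h.fm.uk, h.ha, h.hb, B.pcard_Y.trans h.fm.sub, ?_, ?_,
    h.idx ▸ h.degY.resolve_left hx, fun h1 => ?_, fun h1 => ?_, fun h1 => ?_⟩
  · have h1 := B.card_X_eq h.mem
    have h2 := sum_Xp (B := B) fun _ => 1
    have h3 := sum_Xm (B := B) fun _ => 1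
    simp only [← card_eq_sum_ones] at h2 h3
    omega
  · have h1 := h.deg_eq
    rw [sum_Xp, sum_Xm, sum_congr rfl fun χ hχ => (X1_mem hχ).2.2,
      sum_congr rfl fun χ hχ => (h.X2_mem hχ).2.2, sum_congr rfl fun χ hχ => (Z1_mem hχ).2.2,
      sum_congr rfl fun χ hχ => (h.Z2_mem hχ).2.2, h.idx, h.fm.sub] at h1
    simp only [sum_const, smul_eq_mul] at h1
    push_cast at h1
    linarith
  · obtain ⟨χ, hχ⟩ := card_pos.1 h1
    exact (h.X2_mem hχ).2.2 ▸ hd χ (h.X2_mem hχ).1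
  · obtain ⟨χ, hχ⟩ := card_pos.1 h1
    exact h.fm.sub ▸ (Z1_mem hχ).2.2 ▸ hd χ (Z1_mem hχ).1
  · obtain ⟨χ, hχ⟩ := card_pos.1 h1
    exact (h.Z2_mem hχ).2.2 ▸ hd χ (h.Z2_mem hχ).1

theorem cases (hχ : χ ∈ B.X) : χ = triv ⊤ ∨ χ ∈ X1 B ∨ χ ∈ X2 B ∨ χ ∈ Z1 B ∨ χ ∈ Z2 B := by
  classical
  simp only [X1, X2, Z1, Z2, mem_filter, B.mem_Xp, B.mem_Xm]
  have := B.ε_sign χ hχ
  tauto

theorem cn_A (hχ : χ ∈ X2 B) : Cn S χ 1 u := by
  obtain ⟨h1, h2, h3⟩ := h.X2_mem hχ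
  exact h2 ▸ cn_X h1 (by rw [h2, h3, h.A_eq]; push_cast; rfl)

theorem cn_B (hχ : χ ∈ Z2 B) : Cn S χ (-1) (k + 1) := by
  obtain ⟨h1, h2, h3⟩ := h.Z2_mem hχ
  exact h2 ▸ cn_X h1 (by have := h.B_eq; zify at this; rw [h2, h3]; push_cast; linarith)

theorem cn_n (hχ : χ ∈ X1 B) : Cn S χ 1 (u * (k + 1) + 1) := by
  obtain ⟨h1, h2, h3⟩ := X1_mem hχ
  exact h2 ▸ cn_X h1 (by rw [h2, h3, h.n_eq]; push_cast; rfl)

theorem K_bot [IsSimpleGroup G] (hn : Nat.card (Sylow p G) < p ^ 2) : S.K = ⊥ := by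
  by_contra hK
  have hu := h.fm.u1
  have hk := h.fm.uk
  have hp' := h.p_eq
  have hA := h.A_eq
  have hB := h.B_eq
  have D := h.dt fun e => hK (B.K_eq_bot (B.mem_all.2 (Or.inr (B.ex_mem_Y one_ne_zero)))
    (B.x_ne_one h.perf h.mem) (e.2.trans_lt B.fi_lt))
  have h0 : #(Z1 B) = 0 := card_eq_zero.2 (eq_empty_of_forall_notMem fun χ hχ => hK (by
    obtain ⟨h1, -, h2⟩ := Z1_mem hχ
    exact B.K_eq_bot (B.mem_all.2 (Or.inl h1)) (by rw [h2, h.fm.sub]; nlinarith)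
      (by have := hp.out.pos; omega)))
  obtain ⟨h1, h2, h3⟩ := D.nk h0
  have c1 : #B.Y = 1 → B.δ = -1 → B.x = (u + 1) * a → Cn S (B.ex 1) 1 u := fun e1 e2 e3 => by
    simpa [e2] using cn_ex e1 (α := u) (by rw [e2, e3, hA]; push_cast; rfl)
  have c2 : #B.Y = 1 → B.δ = 1 → B.x = k * b → Cn S (B.ex 1) (-1) (k + 1) := fun e1 e2 e3 => by
    simpa [e2] using cn_ex e1 (α := k + 1) (by zify at hB; rw [e2, e3]; push_cast; linarith)
  obtain ⟨χA, cA⟩ : ∃ χ, Cn S χ 1 u := by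
    rcases h1 with e | ⟨e1, e2, e3⟩
    · exact (card_pos.1 e).imp fun _ => h.cn_A
    · exact ⟨_, c1 e1 e2 e3⟩
  have cB : u = 1 ∨ ∃ χ, Cn S χ (-1) (k + 1) := h2.imp_right fun h2 => by
    rcases h2 with e | ⟨e1, e2, e3⟩
    · exact (card_pos.1 e).imp fun _ => h.cn_B
    · exact ⟨_, c2 e1 e2 e3⟩
  have hT := ti_of_st hn (fun S' s j hs w hw ho g hg => by_contra fun hg' => by
    have h4 := (cA.transfer S').star (by rw [hp']; push_cast; nlinarith) hs hw ho hg hg'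
    have h5 := (dvd_fi hs ((MulEquiv.orderOf_eq (MulAut.conj g) w).trans ho) hg hg').trans fi_dvd
    rw [h.fm.sub, hs.dvd_mul] at h5
    rcases cB with rfl | ⟨χ, cB⟩
    · exact hs.not_dvd_one h4
    have h6 := (cB.transfer S').star (by rw [hp']; push_cast; nlinarith) hs hw ho hg hg'
    rcases h5 with h5 | h5
    · exact hs.not_dvd_one ((Nat.dvd_add_right h4).1 h5)
    · exact hs.not_dvd_one ((Nat.dvd_add_right h5).1 h6)) S
  obtain ⟨s, hs, hsK⟩ := Nat.exists_prime_and_dvd (mt Subgroup.card_eq_one.1 hK)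
  have := Fact.mk hs
  obtain ⟨w, hw⟩ := exists_prime_orderOf_dvd_card' s hsK
  rw [← orderOf_coe] at hw
  have hsf := hT.not_dvd h.perf hs hsK
  have hsp : ¬ s ∣ p := fun e => S.K_cop ((Nat.prime_dvd_prime_iff_eq hs hp.out).1 e ▸ hsK)
  have key : ∀ {χ ε α}, Cn S χ ε α → s ∣ α ∨ (S.fi = p - 1 ∧ (s : ℤ) ∣ α + ε) := fun c =>
    c.dvd_of_ti hs w.2 hw fun g hg => hT w w.2 (fun e => hs.one_lt.ne' (by
      rw [← hw, e, orderOf_one])) g (by rw [hg.eq, mul_inv_cancel_right]; exact S.K_le_N w.2)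
  have kA : s ∣ u := (key cA).resolve_right fun e => hsf (by
    rw [e.1, h.fm.sub]; exact Dvd.dvd.mul_right (by exact_mod_cast e.2) _)
  have kB : ∀ {χ}, Cn S χ (-1) (k + 1) → s ∣ k + 1 := fun c => (key c).resolve_right fun e => hsf (by
    rw [e.1, h.fm.sub]; exact Dvd.dvd.mul_left (by simpa [Int.natCast_dvd_natCast] using e.2) _)
  have kn : ∀ {χ}, ¬ Cn S χ 1 (u * (k + 1) + 1) := fun c => by
    rcases key c with e | ⟨e, e'⟩
    · exact hs.not_dvd_one ((Nat.dvd_add_right (kA.mul_right _)).1 e)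
    · have e1 : s ∣ u * (k + 1) + 2 := by exact_mod_cast e'
      rw [Nat.dvd_add_right (kA.mul_right _), Nat.prime_dvd_prime_iff_eq hs Nat.prime_two] at e1
      exact hsf (e1 ▸ e ▸ (hp.out.even_sub_one (by nlinarith)).two_dvd)
  have h4 : (s : ℤ) ∣ B.δ * B.x - S.fi := by
    rw [← B.deg_eq (triv_mem_irr _), ← B.pcard_X, card_eq_sum_ones, Nat.cast_sum, ← sum_sub_distrib]
    refine dvd_sum fun χ hχ => ?_
    have k0 : ∀ {ε α}, B.ε χ = ε → Cn S χ ε α → s ∣ α → (s : ℤ) ∣ B.ε χ * charDegree χ - (1 : ℕ) :=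
      fun e c d => by
        rw [c.deg, ← e, mul_add, B.ε_mul_self hχ, Nat.cast_one, add_sub_cancel_right]
        exact ((Int.natCast_dvd_natCast.2 d).mul_right _).mul_left _
    rcases h.cases hχ with rfl | e | e | e | e
    · simp [B.ε_triv hχ, deg_triv]
    · exact (kn (h.cn_n e)).elim
    · exact k0 (h.X2_mem e).2.1 (h.cn_A e) kA
    · exact absurd (card_pos.2 ⟨χ, e⟩) (by omega)
    · exact k0 (h.Z2_mem e).2.1 (h.cn_B e) (kB (h.cn_B e))
  have h5 := h4.mul_left (#B.Y : ℤ)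
  have h6 := D.et
  zify at h6 hA hB hp'
  have hs' := Nat.prime_iff_prime_int.1 hs
  have hsp' : ¬ (s : ℤ) ∣ p := mt Int.natCast_dvd_natCast.1 hsp
  have kA' := Int.natCast_dvd_natCast.2 kA
  rcases D.ex with ⟨e1, e2⟩ | ⟨e1, e2 | e2⟩
  · zify at e2
    rw [e1, show (#B.Y : ℤ) * (1 * B.x - S.fi) = k * p by linarith] at h5
    rcases cB with rfl | ⟨χ, cB⟩
    · exact hs.not_dvd_one kA
    · exact hs.not_dvd_one ((Nat.dvd_add_right (Int.natCast_dvd_natCast.1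
        ((hs'.dvd_or_dvd h5).resolve_right hsp'))).1 (kB cB))
  · have h7 : #B.Y = 1 := by
      by_contra h7
      have := B.card_Y_pos
      rcases h3 (by omega) with e | e
      · omega
      · have h8 := h.n_eq
        rw [h.idx, ← e2, e.2, h.A_eq, add_left_inj, mul_left_inj' hp.out.ne_zero] at h8
        nlinarith
    rw [h7, one_mul, ← h.idx, h.n_eq] at e2
    exact kn (by simpa [e1] using cn_ex h7 (α := u * (k + 1) + 1) (by rw [e1, e2]; push_cast; rfl))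
  · zify at e2
    rw [e1, show (#B.Y : ℤ) * (-1 * B.x - S.fi) = -((u + 1) * p) by linarith, dvd_neg] at h5
    exact hs'.not_dvd_one ((dvd_add_right kA').1 ((hs'.dvd_or_dvd h5).resolve_right hsp'))

end Su

end CF.NpSq
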