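import Mathlib
import Cfsg.Agent.Char.Basic

/-!
# Fewer than `p²` Sylow subgroups, VII: a lemma on roots of unity
-/

set_option autoImplicit false

namespace CF.NpSq

open Finset Polynomial
open scoped ComplexConjugate

theorem one_mem_of_roots (V : Finset ℂ) {m j : ℕ} (hm : #V = m) (ho : Odd m) (hj : 0 < j)
    (h1 : ∀ v ∈ V, v ^ (m * j) = 1) (h2 : ∀ i, ∑ v ∈ V, v ^ i = 0 ∨ ‖∑ v ∈ V, v ^ i‖ = m)
    (h3 : ∏ v ∈ V, v = 1) : 1 ∈ V := by
  classical
  have hm0 := ho.pos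
  have he := Nat.mul_pos hm0 hj
  have hn : ∀ v ∈ V, ‖v‖ = 1 := fun v hv => Complex.norm_eq_one_of_pow_eq_one (h1 v hv) he.ne'
  have hc : ∀ v ∈ V, conj v = v⁻¹ := fun v hv => (Complex.inv_eq_conj (hn v hv)).symm
  have h0 : ∀ v ∈ V, v ≠ 0 := fun v hv e => by simpa [e] using hn v hv
  obtain ⟨v0, hv0⟩ := card_pos.1 (hm ▸ hm0)
  have hd : ∀ i, V.lcm (fun v => orderOf (v / v0)) ∣ i ↔ ∀ v ∈ V, v ^ i = v0 ^ i := fun i => by
    simp only [Finset.lcm_dvd_iff, orderOf_dvd_iff_pow_eq_one, div_pow,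
      div_eq_one_iff_eq (pow_ne_zero _ (h0 v0 hv0))]
  generalize V.lcm (fun v => orderOf (v / v0)) = d at hd
  have h4 : ∑ i ∈ range (m * j), (∑ v ∈ V, v ^ (i + 1)) * conj (∑ v ∈ V, v ^ (i + 1)) =
      (m * j : ℕ) * m := by
    simp only [map_sum, sum_mul_sum, map_pow, ← mul_pow]
    rw [sum_comm, ← hm, mul_comm (_ : ℂ), ← nsmul_eq_mul, ← sum_const]
    refine sum_congr rfl fun v hv => ?_
    rw [sum_comm, sum_eq_single_of_mem v hv fun w hw e => ?_]
    · simp [hc v hv, h0 v hv]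
    · simp only [pow_succ, ← sum_mul]
      rw [geom_sum_eq (by rw [hc w hw, Ne, mul_inv_eq_one₀ (h0 w hw)]; exact e.symm), mul_pow, hm,
        h1 v hv, ← map_pow, h1 w hw]
      simp
  rw [sum_congr rfl (g := fun i => if d ∣ i + 1 then (m : ℂ) ^ 2 else 0) fun i _ => by
    split_ifs with h
    · rw [sum_congr rfl ((hd _).1 h), sum_const, hm, nsmul_eq_mul, map_mul, map_natCast, map_pow,
        hc v0 hv0, inv_pow]
      field_simp [h0 v0 hv0]
    · rw [(h2 _).resolve_right fun e => h ((hd _).2 fun v hv =>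
        Char.eq_of_norm_sum_eq_card (fun v : V => (v : ℂ) ^ (i + 1))
          (fun v => by rw [norm_pow, hn v v.2, one_pow])
          (by rw [sum_coe_sort V fun v => v ^ (i + 1), e, Fintype.card_coe, hm]) ⟨v, hv⟩ ⟨v0, hv0⟩),
        zero_mul], ← sum_filter, sum_const, Nat.card_multiples, nsmul_eq_mul] at h4
  obtain ⟨c, hc'⟩ := (hd (m * j)).2 fun v hv => by rw [h1 v hv, h1 v0 hv0]
  have h5 : 0 < d := Nat.pos_of_mul_pos_right (hc' ▸ he)
  have h6 : 0 < c := Nat.pos_of_mul_pos_left (hc' ▸ he)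
  rw [hc', Nat.mul_div_cancel_left _ h5] at h4
  have h7 : c * m * m = c * m * d := by
    have : c * m ^ 2 = d * c * m := by exact_mod_cast h4
    linarith
  have h8 := (hd m).1 (Nat.eq_of_mul_eq_mul_left (Nat.mul_pos h6 hm0) h7 ▸ dvd_rfl)
  have h9 : X ^ m - C (v0 ^ m) = ∏ v ∈ V, (X - C v) := by
    refine eq_of_degree_sub_lt_of_eval_finset_eq V ?_ fun v hv => ?_
    · have e := degree_X_pow_sub_C hm0 (v0 ^ m)
      rw [hm, ← e]
      refine degree_sub_lt_left ?_ (X_pow_sub_C_ne_zero hm0 _) ?_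
      · rw [e]; simp [degree_prod, hm]
      · rw [monic_X_pow_sub_C _ hm0.ne', monic_prod_of_monic _ _ fun v _ => monic_X_sub_C v]
    · simp [eval_prod, h8 v hv, prod_eq_zero hv (sub_self v)]
  have h10 := congrArg (eval 0) h9
  have h11 := congrArg (eval 1) h9
  simp only [eval_sub, eval_pow, eval_X, eval_C, eval_prod, zero_pow hm0.ne', zero_sub,
    one_pow] at h10 h11
  rw [prod_neg fun x => x, hm, h3, ho.neg_one_pow, mul_one, neg_inj] at h10
  rw [h10, sub_self, eq_comm, prod_eq_zero_iff] at h11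
  obtain ⟨v, hv, e⟩ := h11
  exact sub_eq_zero.1 e ▸ hv

end CF.NpSq
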