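import Mathlib
import Cfsg.Agent.NpSq.E
import Cfsg.Agent.NpSq.F0
import Cfsg.Agent.Small.Fb9
import Cfsg.Agent.PF.Lin

/-!
# Fewer than `p²` Sylow subgroups, VIII: the self-centralizing case, reduction
-/

set_option autoImplicit false
set_option linter.unusedSectionVars false

namespace CF.NpSq

open Subgroup CF.BlockB Cfsg CF.PF CF.Small CF.Small.PSet Finset
open scoped ComplexConjugate

variable {p : ℕ} [hp : Fact p.Prime] {G : Type*} [Group G] [Finite G] {S : PSet p G}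
  {B : S.Blk (triv S.K)} {χ σ : G → ℂ} {u k a b : ℕ}

theorem vanish_H (hχ : IsCh ⊤ χ) (h : mu S.P χ (triv S.P) = 0) {q : G} (hq : q ∈ S.N)
    (hq' : q ∉ S.C) : χ q = 0 := by
  rw [← res_of_mem χ hq]
  refine vanish_of_mu_P (hχ.res le_top) ?_ hq hq'
  rwa [mu, ip_congr _ (fun x hx => res_of_mem χ (S.P_le_N hx)) fun _ _ => rfl]

theorem apply_eq_sum_irrK (hχ : IsCh ⊤ χ) {q : G} (hq : q ∈ S.N) (hq' : q ∉ S.C) :
    χ q = ∑ σ ∈ irrK S.N S.P, mu S.N χ σ * σ q := by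
  classical
  rw [← res_of_mem χ hq, congrFun (IsCh.eq_sum_mu (hχ.res le_top)) q, Finset.sum_apply, irrK, sum_filter]
  refine sum_congr rfl fun φ hφ => ?_
  split_ifs with hk
  · simp only [mu, ip_res_left, Pi.smul_apply, smul_eq_mul]
  · rw [Pi.smul_apply, irr_apply_eq_zero_of_fpf S.P_le_N le_rfl hφ hk fun u hu e => ?_, smul_zero]
    obtain ⟨i, rfl⟩ := S.mem_P_iff.1 hu
    by_contra hi
    exact hq' (S.mem_C_of_commute (mt S.zp_eq_one_iff.2 hi) e.symm)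

theorem mu_rel (hK : S.K = ⊥) (hσ : σ ∈ irrK S.N S.P) :
    ∑ χ ∈ B.X, (B.ε χ : ℂ) * mu S.N χ σ - B.δ * mu S.N (B.ex 1) σ = 1 := by
  have h1 := lin_of_ker (hK ▸ bot_le) hσ
  have h2 := isCh_of_irr (mem_irrK.1 hσ).1
  have h3 := ip_N_sub (S := S) (φ := ∑ χ ∈ B.X, (B.ε χ : ℂ) • χ) (φ' := (B.δ : ℂ) • B.ex 1) (ψ := σ)
    (ψ' := σ) (c := 0) (F := fun i => S.fi - B.δ * B.ex 1 (S.zp i)) (fun q hq hq' => by
      simp [Finset.sum_apply, B.reg_rel (triv_mem_irr _) one_ne_zero (mt (mem_C_of_dvd hq) hq')])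
    (fun y hy => by simp [Finset.sum_apply, B.reg_rel (triv_mem_irr _) one_ne_zero (S.K_reg hy)])
    fun i hi y hy => by
      rw [hK, mem_bot] at hy
      rw [apply_zp_mul hσ, hy, h1, mul_one, Finset.sum_apply, sum_congr rfl (g := fun _ => 1) fun χ hχ => by
        rw [Pi.smul_apply, B.pX_zp hχ hi, smul_eq_mul, ← Int.cast_mul, B.ε_mul_self hχ,
          Int.cast_one]]
      simp [B.pcard_X]
  rw [sum_sub_distrib, ← mul_sum, B.sum_ex_zp one_ne_zero, ip_sum_left, ip_smul_left,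
    ← coe_mu le_top (isCh_of_irr (B.ex_irr 1 one_ne_zero)) h2, sum_congr rfl fun χ hχ => by
      rw [ip_smul_left, ← coe_mu le_top (isCh_of_irr (B.X_irr χ hχ)) h2], sum_const,
    card_erase_of_mem (mem_univ _), card_univ, ZMod.card, nsmul_eq_mul,
    Nat.cast_pred hp.out.pos] at h3
  have h4 : (B.δ : ℂ) * B.δ = 1 := by exact_mod_cast B.δ_mul_self
  refine mul_left_cancel₀ (mul_ne_zero (Nat.cast_ne_zero.2 (fi_pos (S := S)).ne')
    natCast_p_ne_zero) (h3.trans ?_)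
  linear_combination (S.fi : ℂ) * h4

namespace Su

variable (h : Su B u k a b) (hK : S.K = ⊥)
include h hK

theorem card_G : Nat.card G = ((u + 1) * k + 1) * S.fi * (a * b) := by
  rw [S.card_eq, hK, card_bot, mul_one, h.idx, ← h.p_eq]

omit hK in
theorem three_lt : 3 < p := by have := h.fm.u1; have := h.fm.uk; rw [h.p_eq]; nlinarith

theorem even_t (h1 : 0 < #(Z1 B)) : Even #B.Y := by
  have h2 := hp.out.even_sub_one (by have := h.three_lt; omega)
  rw [← B.pcard_Y, Nat.even_mul] at h2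
  refine h2.elim id fun h2 => ?_
  obtain ⟨ψ, hψ⟩ := card_pos.1 h1
  obtain ⟨h3, h4, h5⟩ := Z1_mem hψ
  exact even_of_mu_P h.perf hK (isCh_of_irr (B.X_irr ψ h3)) (B.mu_P_of_deg h3 h4 h5)
    (by rw [h5, B.pcard_Y]) h2

theorem tri [IsSimpleGroup G] : Concl p G ∨ (B.δ = 1 ∧ #(X1 B) = 0 ∧ #(X2 B) = 1 ∧ #(Z2 B) = 0 ∧
    S.fi = u + 1 ∧ B.x = b ∧ #B.Y = k ∧ (u = 1 ∨ k = u + 2)) ∨
    (#(X1 B) = 0 ∧ 0 < #(X2 B) ∧ #(Z2 B) = 0 ∧ B.δ = -1 ∧ Even #B.Y ∧ #B.Y ∣ u + 2 ∧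
      ∃ j, k = #B.Y * j ∧ S.fi = (u + 1) * j) := by
  have hf := B.fi_ne_one h.perf h.mem
  have hf0 := fi_pos (S := S)
  by_cases hx : B.δ = 1 ∧ B.x = S.fi
  · obtain ⟨h1, -⟩ := B.caseA h.perf h.mem hK hx.1 hx.2
    obtain ⟨e⟩ := (feit_low (S := S) (B.ex_irr 1 one_ne_zero) (eq_bot_iff.2 ((B.ker_le_pPrimeCore
      (B.mem_all.2 (Or.inr (B.ex_mem_Y one_ne_zero))) (B.x_ne_one h.perf h.mem)).trans
      (pPrimeCore_eq_bot S.p_dvd).le)) (by change B.x + 1 < p; omega) fun hn =>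
        S.index_N_ne_one h.perf hf (index_eq_one.2 (normalizer_eq_top _))).2.2.1 h1 (Or.inl hx.2)
      (ZMod p) (ZMod.card p)
    have hZ : center G = ⊥ := (IsSimpleGroup.eq_bot_or_eq_top_of_normal _ inferInstance).resolve_right
      fun e => hf (relIndex_eq_one.2 fun g _ => S.mem_C_iff.2
        (mem_center_iff.1 (e ▸ mem_top g) _).symm)
    exact Or.inl ⟨h.three_lt, Or.inl ⟨(QuotientGroup.quotientBot.symm.trans
      (QuotientGroup.quotientMulEquivOfEq hZ.symm)).trans e⟩⟩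
  obtain ⟨g, hg, ho⟩ := S.exists_H_eq hK
  have hgH : g ∈ S.H := hg ▸ mem_zpowers g
  have hg1 : g ≠ 1 := fun e => hf (by rw [← ho, e, orderOf_one])
  refine ((h.dt hx).kb ?_ (h.even_t hK) (fun h1 h2 h3 h4 => ?_) fun h1 h2 => ?_).elim
    (fun e => Or.inr (Or.inl e)) fun e => e.elim (fun e => ?_) fun e => Or.inr (Or.inr e)
  rotate_right
  · refine Or.inl (Blk.CaseB.concl (B := B) ⟨h.perf, h.mem, hK, e.1, h.idx ▸ e.2.1,
      fun χ hχ => by_contra fun h1 => ?_, fun χ hχ => by_contra fun h1 => ?_⟩)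
    · classical exact card_ne_zero_of_mem (mem_filter.2 ⟨hχ, h1⟩) e.2.2.1
    · classical exact card_ne_zero_of_mem (mem_filter.2 ⟨hχ, h1⟩) e.2.2.2
  · have h1 := B.sum_sq_le
    rw [B.sum_X h.mem, sum_Xp, sum_Xm, sum_congr rfl fun χ hχ => by rw [(X1_mem hχ).2.2],
      sum_congr (s₁ := Z2 B) rfl fun χ hχ => by rw [(h.Z2_mem hχ).2.2], h.idx, h.card_G hK,
      sum_const, sum_const, smul_eq_mul, smul_eq_mul] at h1
    omega
  · have key : ∀ χ ∈ irr (⊤ : Subgroup G), Vz (((u + 1) * k + 1) * S.fi * (a * b)) S.fi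
        (charDegree χ) → χ g = 0 := fun χ hχ ⟨s, hs, e1, c, e2, e3⟩ =>
      vanish_of_defect_zero hs hχ ((h.card_G hK).trans e2) e3 (ho ▸ e1)
    have h5 := B.reg_rel (triv_mem_irr _) one_ne_zero (S.not_dvd_orderOf_of_mem_H hgH)
    rw [B.sum_ε h.mem fun χ => χ g, sum_Xp, sum_Xm, card_eq_zero.1 h1, sum_empty,
      key _ (B.ex_irr 1 one_ne_zero) h4, triv_of_mem (mem_top g),
      sum_eq_zero (s := X2 B) fun χ hχ => key χ (B.X_irr χ (h.X2_mem hχ).1)
        ((h.X2_mem hχ).2.2 ▸ h2 (card_pos.2 ⟨χ, hχ⟩)),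
      sum_eq_zero (s := Z2 B) fun χ hχ => key χ (B.X_irr χ (h.Z2_mem hχ).1)
        ((h.Z2_mem hχ).2.2 ▸ h3 (card_pos.2 ⟨χ, hχ⟩)),
      sum_eq_zero (s := Z1 B) fun χ hχ => vanish_H (isCh_of_irr (B.X_irr χ (Z1_mem hχ).1))
        (B.mu_P_of_deg (Z1_mem hχ).1 (Z1_mem hχ).2.1 (Z1_mem hχ).2.2) (S.H_le hgH)
        (notMem_C_of_mem_H hK hgH hg1)] at h5
    simp at h5
  · have := Fact.mk Nat.prime_two
    have h3 : S.H.index = p * (a * b) := by
      have := S.H.card_mul_index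
      rw [card_H, h.card_G hK, ← h.p_eq, hK, card_bot, one_mul, mul_comm p, mul_assoc] at this
      exact Nat.eq_of_mul_eq_mul_left hf0 this
    obtain ⟨Q⟩ : Nonempty (Sylow 2 S.H) := inferInstance
    have h4 : ¬ 2 ∣ S.H.index := h3 ▸ ((hp.out.odd_of_ne_two (by
      have := h.three_lt; omega)).mul h2).not_two_dvd_nat
    have hc := isCyclic_H hK
    let T := (Q.isPGroup'.map S.H.subtype).toSylow (by
      rw [index_map_subtype]; exact Nat.prime_two.not_dvd_mul Q.not_dvd_index h4)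
    have h5 : IsCyclic T := isCyclic_of_surjective _
      (equivMapOfInjective (Q : Subgroup S.H) _ S.H.subtype_injective).surjective
    have h6 : 2 ∣ Nat.card G := h.card_G hK ▸ (h1.two_dvd.mul_left _).mul_right _
    have h7 := IsCyclic.isComplement' ((Nat.minFac_eq_two_iff _).2 h6) h5
    let _ := IsCyclic.commGroup (α := T)
    have h8 : ∀ f : G →* T, f.ker = ⊤ := fun f =>
      (eq_top_iff' _).2 fun x => hom_eq_one_of_perfect h.perf f x
    rw [h8, isComplement'_top_left] at h7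
    exact T.not_dvd_index (by rwa [h7, index_bot])

end Su

end CF.NpSq
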