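import Mathlib
import Cfsg.Agent.NpSq.F1

/-!
# Fewer than `p²` Sylow subgroups, IX: the third family of degrees does not occur
-/

set_option autoImplicit false
set_option linter.unusedSectionVars false

namespace CF.NpSq

open Subgroup CF.BlockB Cfsg CF.PF CF.Small CF.Small.PSet Finset
open scoped ComplexConjugate

variable {p : ℕ} [hp : Fact p.Prime] {G : Type*} [Group G] [Finite G] {S : PSet p G}
  {B : S.Blk (triv S.K)} {χ σ : G → ℂ} {u k a b : ℕ}

theorem det_part (h : IsCharacter G χ) {z : G} {e s : ℕ} (he : orderOf z = e) (V : Finset ℂ)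
    (h1 : χ 1 = #V + (2 * s : ℕ) * e) (hV : ∀ v ∈ V, v ^ e = 1)
    (h0 : ∀ k, z ^ k ≠ 1 → χ (z ^ k) = ∑ v ∈ V, v ^ k) : detChar χ z = ∏ v ∈ V, v := by
  have he0 : 0 < e := he ▸ orderOf_pos z
  obtain ⟨ζ, hζ⟩ : ∃ ζ : ℂ, IsPrimitiveRoot ζ e := ⟨_, Complex.isPrimitiveRoot_exp e he0.ne'⟩
  rw [detChar_eq_prod h (Sum.elim (fun v : V => (v : ℂ)) fun x : Fin (2 * s) × Fin e => ζ ^ (x.2 : ℕ))
    (by
      rintro (v | x)
      · exact fun e' => by simpa [show (v : ℂ) = 0 from e', he0.ne'] using hV v v.2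
      · exact pow_ne_zero _ (hζ.ne_zero he0.ne')) fun k => ?_]
  · rw [Fintype.prod_sum_type, Fintype.prod_prod_type]
    simp only [Sum.elim_inl, Sum.elim_inr]
    rw [prod_coe_sort V fun v => v, prod_const, card_univ, Fintype.card_fin, prod_pow_eq_pow_sum,
      Fin.sum_univ_eq_sum_range (fun i => i), pow_mul, ← pow_mul ζ, sum_range_id_mul_two, pow_mul,
      hζ.pow_eq_one, one_pow, one_pow, mul_one]
  · rw [Fintype.sum_sum_type, Fintype.sum_prod_type]
    simp only [Sum.elim_inl, Sum.elim_inr]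
    rw [sum_coe_sort V fun v => v ^ k, sum_const, card_univ, Fintype.card_fin, nsmul_eq_mul]
    simp only [← pow_mul, mul_comm _ k]
    simp only [pow_mul]
    rw [Fin.sum_univ_eq_sum_range (fun i => (ζ ^ k) ^ i)]
    by_cases hk : z ^ k = 1
    · obtain ⟨c, rfl⟩ := he ▸ orderOf_dvd_iff_pow_eq_one.2 hk
      rw [hk, h1, sum_congr rfl (g := fun _ => 1) fun v hv => by rw [pow_mul, hV v hv, one_pow],
        pow_mul, hζ.pow_eq_one]
      simp
    · have h3 : ζ ^ k ≠ 1 := fun h => hk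
        (orderOf_dvd_iff_pow_eq_one.1 (he ▸ (hζ.pow_eq_one_iff_dvd k).1 h))
      rw [h0 k hk, geom_sum_eq h3, ← pow_mul, mul_comm k, pow_mul, hζ.pow_eq_one]
      simp

theorem integral_div {x : ℂ} (hx : IsIntegral ℤ x) {m c : ℕ} (hm : m ≠ 0) (hc : m.Coprime c)
    (h : IsIntegral ℤ (c * x / m)) : IsIntegral ℤ (x / m) := by
  obtain ⟨α, β, e⟩ := Nat.isCoprime_iff_coprime.2 hc
  have e' : (α * m + β * c : ℂ) = 1 := by exact_mod_cast e
  have : x / m = α • x + β • (c * x / m) := by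
    have : (m : ℂ) ≠ 0 := Nat.cast_ne_zero.2 hm
    simp only [zsmul_eq_mul]
    field_simp
    linear_combination (-x) * e'
  exact this ▸ (hx.zsmul α).add (h.zsmul β)

theorem Su.no_third (h : Su B u k a b) (hK : S.K = ⊥) (h2 : 0 < #(X2 B)) (h3 : #(Z2 B) = 0)
    (hδ : B.δ = -1) (ht : Even #B.Y) (ht' : #B.Y ∣ u + 2) {j : ℕ} (he : S.fi = (u + 1) * j) :
    False := by
  classical
  obtain ⟨χ, hχ⟩ := card_pos.1 h2
  obtain ⟨c1, c2, c3⟩ := h.X2_mem hχ
  have ci := B.X_irr χ c1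
  have ch := isCh_of_irr ci
  have hZ : S.K ≤ center G := hK ▸ bot_le
  have hm : mu S.P χ (triv S.P) = u + 1 := by
    have := B.mu_P_X c1
    rw [c2, c3, h.A_eq] at this
    refine Nat.eq_of_mul_eq_mul_left hp.out.pos ?_
    zify
    push_cast at this
    linarith
  have hmu : ∀ σ ∈ irrK S.N S.P, mu S.N (triv ⊤) σ + mu S.N χ σ ≤ 1 := fun σ hσ => by
    have h4 := mu_rel (B := B) hK hσ
    rw [B.sum_ε h.mem fun χ => (mu S.N χ σ : ℂ), sum_Xm, card_eq_zero.1 h3, sum_empty, hδ,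
      sum_eq_zero (s := Z1 B) fun β hβ => by
        have := B.mu_P_of_deg (Z1_mem hβ).1 (Z1_mem hβ).2.1 (Z1_mem hβ).2.2
        rw [mu_P_sum hZ (isCh_of_irr (B.X_irr β (Z1_mem hβ).1)), sum_eq_zero_iff] at this
        rw [this σ hσ, Nat.cast_zero]] at h4
    have h5 : mu S.N (triv ⊤) σ + ∑ χ ∈ B.Xp, mu S.N χ σ + mu S.N (B.ex 1) σ = 1 := by
      apply Nat.cast_injective (R := ℂ)
      push_cast at h4 ⊢
      linear_combination h4
    have := single_le_sum (f := fun χ => mu S.N χ σ) (fun _ _ => Nat.zero_le _) (mem_filter.1 hχ).1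
    omega
  obtain ⟨g, hg, ho⟩ := S.exists_H_eq hK
  have hgH : ∀ i : ℕ, g ^ i ∈ S.H := fun i => hg ▸ npow_mem_zpowers g i
  have hpow : ∀ σ ∈ irrK S.N S.P, ∀ i : ℕ, σ (g ^ i) = σ g ^ i := fun σ hσ i => by
    obtain ⟨l, rfl⟩ := exists_lin (isCh_of_irr (mem_irrK.1 hσ).1) (lin_of_ker hZ hσ)
    exact lin_map_pow l (S.H_le (hg ▸ mem_zpowers g)) i
  have hinj : ∀ σ ∈ irrK S.N S.P, ∀ τ ∈ irrK S.N S.P, σ g = τ g → σ = τ := fun σ hσ τ hτ e => by
    funext q
    by_cases hq : q ∈ S.N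
    · obtain ⟨w, hw, y, hy, rfl⟩ := S.H_mul q hq
      obtain ⟨i, rfl⟩ := S.mem_P_iff.1 hw
      obtain ⟨n, rfl⟩ := (mem_powers_iff_mem_zpowers.2 (hg ▸ hy) : y ∈ Submonoid.powers g)
      rw [apply_zp_mul hσ, apply_zp_mul hτ, hpow σ hσ, hpow τ hτ, e]
    · rw [(isCh_of_irr (mem_irrK.1 hσ).1).1 q hq, (isCh_of_irr (mem_irrK.1 hτ).1).1 q hq]
  obtain ⟨W, hW⟩ : ∃ W, W = (irrK S.N S.P).filter fun σ => mu S.N χ σ ≠ 0 := ⟨_, rfl⟩
  have hW1 : ∀ σ ∈ W, σ ∈ irrK S.N S.P := fun σ hσ => (mem_filter.1 (hW ▸ hσ)).1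
  have hsum : ∀ F : (G → ℂ) → ℂ, ∑ σ ∈ irrK S.N S.P, mu S.N χ σ * F σ = ∑ σ ∈ W, F σ := fun F => by
    rw [hW, sum_filter]
    refine sum_congr rfl fun σ hσ => ?_
    have := hmu σ hσ
    split_ifs with e
    · rw [show mu S.N χ σ = 1 by omega, Nat.cast_one, one_mul]
    · rw [not_not.1 e, Nat.cast_zero, zero_mul]
  have hWi : Set.InjOn (fun σ : G → ℂ => σ g) W := fun σ hσ τ hτ => hinj σ (hW1 σ hσ) τ (hW1 τ hτ)
  have hV : #(W.image fun σ => σ g) = u + 1 := by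
    have := hsum fun _ => 1
    rw [card_image_of_injOn hWi, ← hm, mu_P_sum hZ ch]
    apply Nat.cast_injective (R := ℂ)
    simpa using this.symm
  have hval : ∀ i, g ^ i ≠ 1 → χ (g ^ i) = ∑ v ∈ W.image fun σ => σ g, v ^ i := fun i hi => by
    rw [apply_eq_sum_irrK ch (S.H_le (hgH i)) (notMem_C_of_mem_H hK (hgH i) hi), hsum,
      sum_image hWi]
    exact sum_congr rfl fun σ hσ => hpow σ (hW1 σ hσ) i
  have hone : ∀ i, g ^ i = 1 → ∀ v ∈ W.image fun σ => σ g, v ^ i = 1 := fun i hi v hv => by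
    obtain ⟨σ, hσ, rfl⟩ := mem_image.1 hv
    rw [← hpow σ (hW1 σ hσ), hi, lin_of_ker hZ (hW1 σ hσ)]
  have hu : Even u := even_iff_two_dvd.2 ((Nat.dvd_add_left dvd_rfl).1 (ht.two_dvd.trans ht'))
  have h4 := one_mem_of_roots _ hV hu.add_one (Nat.pos_of_mul_pos_left (he ▸ fi_pos))
    (hone _ (by rw [← he, ← ho, pow_orderOf_eq_one])) (fun i => ?_) ?_
  · obtain ⟨σ, hσ, e⟩ := mem_image.1 h4
    have h5 := triv_mem_irrK S.P_le_N
    obtain rfl := hinj σ (hW1 σ hσ) _ h5 (e.trans (triv_of_mem (S.H_le (hg ▸ mem_zpowers g))).symm)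
    have h6 := hmu _ h5
    rw [Blk.CaseB.mu_triv_N] at h6
    rw [hW, mem_filter] at hσ
    omega
  · by_cases hi : g ^ i = 1
    · rw [sum_congr rfl (hone i hi), sum_const, hV]
      exact Or.inr (by rw [nsmul_eq_mul, mul_one, Complex.norm_natCast])
    rw [← hval i hi, or_iff_not_imp_left]
    intro h0
    have h5 : (0 : ℝ) < (u + 1 : ℕ) := by positivity
    have h6 : IsIntegral ℤ (χ (g ^ i) / (u + 1 : ℕ)) := by
      refine integral_div (Char.char_isIntegral (isCh_top.1 ch) _) (c := p * b) (by omega)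
        (Nat.Coprime.mul_right (by rw [h.p_eq]; simp) (by rw [h.hb]; simp)) ?_
      obtain ⟨c, hc⟩ := index_dvd_of_le (show S.H ≤ centralizer {g ^ i} from hg ▸ zpowers_le.2
        (mem_centralizer_singleton_iff.2 (Commute.self_pow g i)))
      have h6 := S.H.card_mul_index
      rw [card_H, h.card_G hK, ← h.p_eq, hK, card_bot, one_mul, mul_comm p, mul_assoc,
        mul_right_inj' fi_pos.ne', hc] at h6
      have h7 : ((centralizer {g ^ i}).index * c : ℂ) = p * (a * b) := by exact_mod_cast h6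
      have h8 : (a : ℂ) ≠ 0 := Nat.cast_ne_zero.2 (by rw [h.ha]; omega)
      have h9 : ((u + 1 : ℕ) : ℂ) ≠ 0 := Nat.cast_ne_zero.2 (by omega)
      convert (isIntegral_omega ci (g ^ i)).nsmul c using 1
      rw [c3, nsmul_eq_mul, Nat.cast_mul, Nat.cast_mul]
      field_simp
      linear_combination -h7
    obtain ⟨n, hn, e⟩ := Char.kronecker h6 (div_ne_zero h0 (by exact_mod_cast h5.ne')) fun σ => by
      obtain ⟨m, hm', hσ⟩ := Char.aut_exists_gen_pow (G := G) σ.toRingHom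
      have e := hσ χ (mem_ZIrr_top.1 ch.zirr) (g ^ i)
      have h7 : (g ^ i) ^ m ≠ 1 := fun h7 => by
        obtain ⟨c, hc⟩ := exists_pow_eq_self_of_coprime
          (hm'.coprime_dvd_right (orderOf_dvd_natCard (g ^ i)))
        exact hi (by rw [← hc, h7, one_pow])
      have h8 := norm_le_mu ch (S.H_le (pow_mem (hgH i) m))
        (notMem_C_of_mem_H hK (pow_mem (hgH i) m) h7)
      change σ (χ (g ^ i)) = _ at e
      rwa [map_div₀, map_natCast, norm_div, Complex.norm_natCast, div_le_one h5, e, ← hm]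
    have h7 := Char.norm_eq_one_of_pow_eq_one' hn.ne' e
    rwa [norm_div, Complex.norm_natCast, div_eq_one_iff_eq h5.ne'] at h7
  · obtain ⟨c, hc⟩ := hu.two_dvd
    rw [← det_part (isCh_top.1 ch) ho _ (s := c * #B.Y) ?_ (hone _ (ho ▸ pow_orderOf_eq_one g)) hval,
      ← Clifford.coe_detHom (isCh_top.1 ch), hom_eq_one_of_perfect h.perf, Units.val_one]
    have h5 := B.pcard_Y
    have h6 := hp.out.pos
    have h7 : (p : ℂ) = #B.Y * S.fi + 1 := by exact_mod_cast (by omega : p = #B.Y * S.fi + 1)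
    rw [← coe_deg ch, c3, hV, h.A_eq, hc]
    push_cast
    rw [h7]
    ring

end CF.NpSq
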